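/-
Simple groups with at most eleven conjugacy classes: specifications of the basic parts of the search program.
-/
import Cfsg.Agent.Known.KC.Eng

set_option autoImplicit false

namespace CL.KC

@[simp] theorem band_iff {a b : Bool} : band a b = true ↔ a = true ∧ b = true := by cases a <;> simp [band]
@[simp] theorem bor_iff {a b : Bool} : bor a b = true ↔ a = true ∨ b = true := by cases a <;> simp [bor]
@[simp] theorem imp_iff {a b : Bool} : imp a b = true ↔ (a = true → b = true) := by cases a <;> simp [imp]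
@[simp] theorem bnot_iff {a : Bool} : bnot a = true ↔ ¬ a = true := by cases a <;> simp [bnot]
theorem sel_eq {α : Type} (a : Bool) (x y : α) : sel a x y = if a = true then x else y := by cases a <;> rfl
@[simp] theorem frc_eq (x : ℕ) (k : ℕ → Bool) : frc x k = k x := by cases x <;> rfl

@[simp] theorem frcL_eq (l : List ℕ) : ∀ k : List ℕ → Bool, frcL l k = k l := by
  induction l with
  | nil => exact fun _ => rfl
  | cons x t ih => exact fun k => (frc_eq x fun y => frcL t fun m => k (y :: m)).trans (ih _)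

@[simp] theorem all_iff {α : Type} {f : α → Bool} {l : List α} : all f l = true ↔ ∀ a ∈ l, f a = true := by
  induction l with
  | nil => simp [all]
  | cons x t ih => exact (band_iff (a := f x) (b := all f t)).trans (by rw [ih, List.forall_mem_cons])

@[simp] theorem any_iff {α : Type} {f : α → Bool} {l : List α} : any f l = true ↔ ∃ a ∈ l, f a = true := by
  induction l with
  | nil => simp [any]
  | cons x t ih => exact (bor_iff (a := f x) (b := any f t)).trans (by rw [ih]; simp)

theorem flt_eq {α : Type} (f : α → Bool) (l : List α) : flt f l = l.filter f := by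
  induction l with
  | nil => rfl
  | cons x t ih =>
    show sel (f x) (x :: flt f t) (flt f t) = _
    rw [sel_eq, ih, List.filter_cons]

@[simp] theorem mem_flt {α : Type} {f : α → Bool} {l : List α} {a : α} : a ∈ flt f l ↔ a ∈ l ∧ f a = true := by
  rw [flt_eq, List.mem_filter]

theorem sm_eq {α : Type} (f : α → ℕ) (l : List α) : sm f l = (l.map f).sum := by
  induction l with
  | nil => rfl
  | cons x t ih =>
    show f x + sm f t = _
    rw [ih, List.map_cons, List.sum_cons]

@[simp] theorem dv_iff {a b : ℕ} : dv a b = true ↔ a ∣ b :=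
  Nat.beq_eq.to_iff.trans (Nat.dvd_iff_mod_eq_zero ..).symm

@[simp] theorem mem_iff {x : ℕ} {l : List ℕ} : mem x l = true ↔ x ∈ l := by simp [mem]

theorem mx_eq (a b : ℕ) : mx a b = max a b := by
  rw [mx, sel_eq, max_def]
  simp

theorem sm_sel {α : Type} (p : α → Bool) (f : α → ℕ) (l : List α) :
    sm (fun a => sel (p a) (f a) 0) l = ((l.filter p).map f).sum := by
  rw [sm_eq]
  induction l with
  | nil => rfl
  | cons x t ih =>
    rw [List.map_cons, List.sum_cons, ih, sel_eq, List.filter_cons]
    split_ifs <;> simp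

theorem ct_eq (x : ℕ) (l : List ℕ) : ct x l = l.count x := by
  rw [ct, sm_sel, List.map_const', List.sum_replicate, smul_eq_mul, mul_one, List.count_eq_countP,
    List.countP_eq_length_filter]
  congr 1
  refine List.filter_congr fun y _ => ?_
  rw [Bool.eq_iff_iff, Nat.beq_eq, beq_iff_eq]
  exact eq_comm

theorem allD_spec {f : ℕ → Bool} {l : List ℕ} (h : allD f l = true) : ∀ a ∈ l, f a = true := by
  induction l with
  | nil => simp
  | cons x t ih =>
    obtain ⟨h1, h2⟩ := (band_iff (a := bor (mem x t) (f x)) (b := allD f t)).1 h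
    refine List.forall_mem_cons.2 ⟨?_, ih h2⟩
    exact (bor_iff.1 h1).elim (fun e => ih h2 x (mem_iff.1 e)) id

theorem mem_dedup {l : List ℕ} {a : ℕ} : a ∈ dedup l ↔ a ∈ l := by
  induction l with
  | nil => rfl
  | cons x t ih =>
    show a ∈ sel (mem x t) (dedup t) (x :: dedup t) ↔ _
    rw [sel_eq]
    split_ifs with h
    · rw [ih, List.mem_cons]
      exact ⟨Or.inr, fun e => e.elim (fun e => e ▸ mem_iff.1 h) id⟩
    · rw [List.mem_cons, List.mem_cons, ih]

theorem part_eq {r c : ℕ} (hr : r.Prime) (hc : c ≠ 0) : part r c = r ^ c.factorization r := by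
  have h1 : c.factorization r ≤ Nat.log2 c := by
    rw [Nat.le_log2 hc]
    exact (Nat.pow_le_pow_left hr.two_le _).trans (Nat.ordProj_le r hc)
  obtain ⟨j, hj⟩ := Nat.exists_eq_add_of_le h1
  show Nat.gcd c (r ^ Nat.log2 c) = _
  have h2 := Nat.gcd_mul_left (ordProj[r] c) (ordCompl[r] c) (r ^ j)
  rw [Nat.ordProj_mul_ordCompl_eq_self, ((Nat.coprime_ordCompl hr hc).symm.pow_right j).gcd_eq_one, mul_one] at h2
  rw [hj, pow_add, h2]

theorem eraseK_spec {t : ℕ} {T : List Info} : ∀ {k : List Info → Bool}, eraseK t T k = true →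
    ∃ T', k T' = true ∧ (∀ x ∈ T', x ∈ T) ∧ T'.map Info.t = (T.map Info.t).erase t := by
  induction T with
  | nil => exact fun h => ⟨[], h, by simp, rfl⟩
  | cons x s ih =>
    intro k h
    change sel (Nat.beq x.t t) (k s) (eraseK t s fun m => k (x :: m)) = true at h
    rw [sel_eq] at h
    split_ifs at h with e
    · exact ⟨s, h, fun y hy => List.mem_cons_of_mem _ hy, by
        rw [List.map_cons, Nat.eq_of_beq_eq_true e, List.erase_cons_head]⟩
    · obtain ⟨T', h1, h2, h3⟩ := ih h
      refine ⟨x :: T', h1, fun y hy => ?_, ?_⟩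
      · exact List.mem_cons.2 ((List.mem_cons.1 hy).imp_right (h2 y))
      · rw [List.map_cons, List.map_cons, h3, List.erase_cons_tail (by simpa using e)]

theorem allT_spec {f : Info → Bool} {t : ℕ} {T : List Info} : ∀ {p : ℕ}, allT f T p = true →
    t ∈ T.map Info.t → t ≠ p → ∃ x ∈ T, x.t = t ∧ f x = true := by
  induction T with
  | nil => simp
  | cons x s ih =>
    intro p h ht hp
    obtain ⟨h1, h2⟩ := (band_iff (a := bor (Nat.beq x.t p) (f x)) (b := allT f s x.t)).1 h
    by_cases e : t = x.t
    · refine ⟨x, List.mem_cons_self, e.symm, (bor_iff.1 h1).resolve_left fun e2 => hp ?_⟩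
      rw [e, Nat.eq_of_beq_eq_true e2]
    · obtain ⟨y, hy, h3⟩ := ih h2 ((List.mem_cons.1 ht).resolve_left e) e
      exact ⟨y, List.mem_cons_of_mem _ hy, h3⟩

theorem memT_iff {t : ℕ} {T : List Info} : memT t T = true ↔ t ∈ T.map Info.t := by simp [memT]

theorem loop_spec {F : ℕ → Bool} {r hi : ℕ} (hr : 0 < r) (k : ℕ) :
    ∀ b j, loop F r hi k b = true → b * r ^ j ≤ hi → F (b * r ^ j) = true := by
  induction k with
  | zero =>
    intro b j h hb
    have h1 : hi < b := Nat.blt_eq.to_iff.1 h
    exact absurd ((Nat.le_mul_of_pos_right b (pow_pos hr j)).trans hb) h1.not_ge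
  | succ k ih =>
    intro b j h hb
    change imp (Nat.ble b hi) (band (F b) (frc (b * r) (loop F r hi k))) = true at h
    simp only [imp_iff, band_iff, frc_eq, Nat.ble_eq] at h
    obtain ⟨h1, h2⟩ := h ((Nat.le_mul_of_pos_right b (pow_pos hr j)).trans hb)
    cases j with
    | zero => simpa using h1
    | succ j =>
      rw [pow_succ', ← mul_assoc] at hb ⊢
      exact ih _ _ h2 hb

theorem gen2_cons (F : ℕ → Bool) (hi r : ℕ) (l : List ℕ) : gen2 F hi (r :: l) = loop (gen2 F hi l) r hi 200 := by
  unfold gen2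
  rfl

theorem gen2_spec {F : ℕ → Bool} {hi : ℕ} {l : List ℕ} (hl : ∀ r ∈ l, r.Prime) :
    ∀ b m, gen2 F hi l b = true → m ≠ 0 → (∀ q, q.Prime → q ∣ m → q ∈ l) → b * m ≤ hi → F (b * m) = true := by
  induction l with
  | nil =>
    intro b m h _ hm _
    rw [Nat.eq_one_iff_not_exists_prime_dvd.2 fun q hq hd => absurd (hm q hq hd) List.not_mem_nil, mul_one]
    exact h
  | cons r l ih =>
    intro b m h h0 hm hb
    have hr := hl r List.mem_cons_self
    obtain ⟨j, u, hu, rfl⟩ := Nat.exists_eq_pow_mul_and_not_dvd h0 r hr.ne_one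
    rw [← mul_assoc] at hb ⊢
    have u0 : u ≠ 0 := right_ne_zero_of_mul h0
    refine ih (fun q hq => hl q (List.mem_cons_of_mem _ hq)) _ _
      (loop_spec (F := gen2 F hi l) hr.pos 200 b j (gen2_cons F hi r l ▸ h) ((Nat.le_mul_of_pos_right _ (Nat.pos_of_ne_zero u0)).trans hb)) u0
      (fun q hq hd => (List.mem_cons.1 (hm q hq (hd.mul_left _))).resolve_left fun e => hu (e ▸ hd)) hb

theorem mem_parts {t r : ℕ} {P : List (ℕ × ℕ)} {a : ℕ × ℕ} (ha : a ∈ P) (h : a.1 = t) :
    part r a.2 ∈ parts t r P := by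
  induction P with
  | nil => simp at ha
  | cons x s ih =>
    show _ ∈ sel (Nat.beq x.1 t) (part r x.2 :: parts t r s) (parts t r s)
    rw [sel_eq]
    rcases List.mem_cons.1 ha with rfl | e
    · rw [if_pos (by simpa using h)]
      exact List.mem_cons_self
    · split_ifs
      · exact List.mem_cons_of_mem _ (ih e)
      · exact ih e

theorem gen1_spec {F : ℕ → Bool} {hi t : ℕ} {P : List (ℕ × ℕ)} {R : ℕ → Prop} {l : List ℕ}
    (hl : ∀ r ∈ l, r.Prime) : ∀ b m, gen1 F hi t P l b = true → m ≠ 0 →
      (∀ q, q.Prime → q ∣ m → q ∈ l ∨ R q) →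
      (∀ q ∈ l, q ∣ m → ∃ a ∈ P, a.1 = t * q ∧ part q a.2 = q ^ m.factorization q) → b * m ≤ hi →
      ∃ b' m', F b' = true ∧ b' * m' = b * m ∧ m' ≠ 0 ∧ ∀ q, q.Prime → q ∣ m' → R q := by
  induction l with
  | nil => exact fun b m h h0 hm _ _ => ⟨b, m, h, rfl, h0, fun q hq hd => by simpa using hm q hq hd⟩
  | cons r l ih =>
    intro b m h h0 hm hp hb
    have hr := hl r List.mem_cons_self
    have hl' : ∀ q ∈ l, q.Prime := fun q hq => hl q (List.mem_cons_of_mem _ hq)
    change band (gen1 F hi t P l b) (frc (t * r) fun s => frcL (parts s r P) fun w =>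
      allD (fun z => frc (b * z) fun b' => imp (Nat.ble b' hi) (gen1 F hi t P l b')) w) = true at h
    simp only [band_iff, frc_eq, frcL_eq] at h
    by_cases e : r ∣ m
    · obtain ⟨a, ha, h1, h2⟩ := hp r List.mem_cons_self e
      have h3 := allD_spec h.2 _ (mem_parts (r := r) ha h1)
      have h4 := Nat.ordProj_mul_ordCompl_eq_self m r
      have h5 := Nat.ordCompl_pos r h0
      have h6 : ∀ q, q ∣ ordCompl[r] m → q ≠ r := fun q hd e => Nat.not_dvd_ordCompl hr h0 (e ▸ hd)
      rw [imp_iff, Nat.ble_eq, h2] at h3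
      have h7 : b * ordProj[r] m * ordCompl[r] m = b * m := by rw [mul_assoc, h4]
      rw [← h7] at hb ⊢
      refine ih hl' _ _ (h3 ((Nat.le_mul_of_pos_right _ h5).trans hb)) h5.ne' (fun q hq hd => ?_)
        (fun q hq hd => ?_) hb
      · exact (hm q hq (hd.trans (Nat.ordCompl_dvd m r))).imp_left
          fun e => (List.mem_cons.1 e).resolve_left (h6 q hd)
      · rw [Nat.factorization_ordCompl, Finsupp.erase_ne (h6 q hd)]
        exact hp q (List.mem_cons_of_mem _ hq) (hd.trans (Nat.ordCompl_dvd m r))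
    · exact ih hl' b m h.1 h0
        (fun q hq hd => (hm q hq hd).imp_left fun e2 => (List.mem_cons.1 e2).resolve_left fun e3 : q = r => e (e3 ▸ hd))
        (fun q hq => hp q (List.mem_cons_of_mem _ hq)) hb

theorem eqP_spec {P : List (ℕ × ℕ)} : ∀ {Q : List (ℕ × ℕ)}, eqP P Q = true → P = Q := by
  induction P with
  | nil =>
    intro Q h
    cases Q with
    | nil => rfl
    | cons => exact absurd h Bool.false_ne_true
  | cons a s ih =>
    intro Q h
    cases Q with
    | nil => exact absurd h Bool.false_ne_true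
    | cons b t =>
      change band (Nat.beq a.1 b.1) (band (Nat.beq a.2 b.2) (eqP s t)) = true at h
      simp only [band_iff, Nat.beq_eq] at h
      rw [ih h.2.2, Prod.ext h.1 h.2.1]

theorem eqL_spec {P : List ℕ} : ∀ {Q : List ℕ}, eqL P Q = true → P = Q := by
  induction P with
  | nil =>
    intro Q h
    cases Q with
    | nil => rfl
    | cons => exact absurd h Bool.false_ne_true
  | cons a s ih =>
    intro Q h
    cases Q with
    | nil => exact absurd h Bool.false_ne_true
    | cons b t =>
      change band (Nat.beq a b) (eqL s t) = true at h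
      simp only [band_iff, Nat.beq_eq] at h
      rw [ih h.2, h.1]

end CL.KC
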