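/-
Simple groups with at most eleven conjugacy classes: the arithmetical data.
A class is recorded as the pair (product of the primes dividing the element order, centralizer order).
-/
import Cfsg.Agent.Blk.ClassSumF

set_option autoImplicit false

namespace CL.KC

open Finset

/-- The number of entries of type `r`. -/
def cnt (M : Multiset (ℕ × ℕ)) (r : ℕ) : ℕ := (M.map Prod.fst).count r

/-- Conditions on the value `x` on the class `a` of a rational character of degree `d`. -/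
def RowC (g d : ℕ) (a : ℕ × ℕ) (x : ℤ) : Prop :=
  x.natAbs ≤ d ∧ (a.1.Prime → (a.1 : ℤ) ∣ x - d) ∧ (∀ q, q.Prime → q ∣ a.1 → ¬ q ∣ g / d → x = 0) ∧
    (d : ℤ) ∣ ((g / a.2 : ℕ) : ℤ) * x

/-- A row of the character table of a non-principal rational character of degree `d`. -/
def Row (g : ℕ) (M : Multiset (ℕ × ℕ)) (d : ℕ) : Prop :=
  ∃ N : Multiset ((ℕ × ℕ) × ℤ), N.map Prod.fst = M ∧ (∀ z ∈ N, RowC g d z.1 z.2) ∧
    (d : ℤ) + (N.map fun z => z.2 * ((g / z.1.2 : ℕ) : ℤ)).sum = 0 ∧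
    (d : ℤ) ^ 2 + (N.map fun z => z.2 ^ 2 * ((g / z.1.2 : ℕ) : ℤ)).sum = g

/-- The principal block for a self-centralizing Sylow subgroup of order `p` with `t` classes of elements of
order `p`; `D` is the multiset of degrees of the non-principal characters. -/
def Blk (g p t : ℕ) (D : Multiset ℕ) : Prop :=
  ∃ (X : Multiset ℤ) (u : ℤ) (e : ℕ) (W : Multiset ℕ), p = e * t + 1 ∧ X.card + 1 = e ∧
    D = X.map Int.natAbs + Multiset.replicate t u.natAbs + W ∧ (∀ x ∈ X, (p : ℤ) ∣ x - 1) ∧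
    u = 1 + X.sum ∧ (∀ w ∈ W, p ∣ w) ∧
    ∀ q a i : ℕ, q.Prime → q ≠ p → q ^ (a + 1) ∣ g →
      (∀ x ∈ X, x.natAbs = q ^ i → ∃ Y ≤ X, x ∈ Y ∧ ∃ j : ℕ, j ≤ t ∧
        (q : ℤ) ^ (a + 1) ∣ (p - 1) * Y.sum - e * u * j) ∧
      (u.natAbs = q ^ i → ∃ Y ≤ X, ∃ j : ℕ, 1 ≤ j ∧ j ≤ t ∧
        (q : ℤ) ^ (a + 1) ∣ (p - 1) * Y.sum - e * u * j)

/-- The character-theoretic conditions. -/
def Chr (g : ℕ) (M : Multiset (ℕ × ℕ)) : Prop :=
  ∃ D : Multiset ℕ, D.card = M.card ∧ 1 + (D.map (· ^ 2)).sum = g ∧ (∀ d ∈ D, 2 ≤ d ∧ d ∣ g) ∧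
    (∀ d, D.count d = 1 → Row g M d) ∧ ∀ p, p.Prime → (p, p) ∈ M → Blk g p (cnt M p) D

/-- Counting conditions. -/
structure DataA (g : ℕ) (M : Multiset (ℕ × ℕ)) : Prop where
  card : M.card ≤ 10
  sum : 1 + (M.map fun a => g / a.2).sum = g
  dvd : ∀ a ∈ M, a.2 ∣ g
  typ : ∀ a ∈ M, a.1 ∣ a.2 ∧ 1 < a.1 ∧ Squarefree a.1
  five : ∀ a ∈ M, 5 ≤ a.2 ∧ 5 * a.2 ≤ g
  two : ∀ a ∈ M, a.1 = 2 → 4 ∣ a.2
  prime : ∀ r, r.Prime → r ∣ g → 0 < cnt M r
  even : 2 ∣ g
  big : ∃ p, p.Prime ∧ 5 ≤ p ∧ p ∣ g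
  frob : ∀ d, d ∣ g → d.Coprime (g / d) → d ∣ 1 + ((M.filter fun a => a.1 ∣ d).map fun a => g / a.2).sum
  norm : ∀ r k q, r.Prime → r ∣ g → q ∣ g → q ∣ r ^ k →
    q < 1 + ((M.filter fun a => a.1 = r).map fun a => g / a.2).sum
  small : g < 7200 → g ∈ [60, 168, 360, 504, 660, 1092, 2448, 2520, 3420, 4080, 5616, 6048, 6072]

/-- Local conditions. -/
structure DataB (g : ℕ) (M : Multiset (ℕ × ℕ)) : Prop where
  parent : ∀ a ∈ M, ∀ r, r.Prime → r ∣ a.1 → a.1 ≠ r → ∃ b ∈ M, b.1 * r = a.1 ∧ a.2 ∣ b.2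
  child : ∀ a ∈ M, ∀ r, r.Prime → ¬ r ∣ a.1 → r ∣ a.2 → ∃ b ∈ M, b.1 = a.1 * r ∧ b.2 ∣ a.2 ∧ ¬ r ∣ a.2 / b.2
  aut : ∀ p, p.Prime → 0 < cnt M p → ∃ n e, p = n * e + 1 ∧ n ≤ cnt M p ∧
    (∀ r k, r.Prime → r ^ k ∣ e → k ≤ cnt M r) ∧ (e = 1 ∨ ∃ a ∈ M, a.1 ∣ e ∧ e ∣ a.1 ^ e)
  syl : ∀ a ∈ M, a.1.Prime → a.1 ≠ 2 → ¬ a.1 ^ 2 ∣ a.2 → ¬ a.1 ^ 2 ∣ g ∧ (∀ b ∈ M, b.1 = a.1 → b.2 = a.2) ∧
    ∃ e, 2 ≤ e ∧ a.1 = e * cnt M a.1 + 1 ∧ e + cnt M a.1 ≤ 11
  six : M.count (6, 6) ≤ cnt M 3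

/-- The outcome of the search. -/
def Out (g : ℕ) (M : Multiset (ℕ × ℕ)) : Prop :=
  g = 2520 ∨ M.card ≤ 7 ∨ (M.card = 8 ∧ (g = 504 ∨ g = 1092)) ∨
    (M.card = 9 ∧ (g = 7920 ∨ (g = 20160 ∧ cnt M 6 = 0))) ∨
    (M.card = 10 ∧ (g = 2448 ∨ g = 29120))

/-- The arithmetical theorem, proved by computation. -/
def Search : Prop := ∀ g M, DataA g M → DataB g M → Chr g M → Out g M

section Group

variable {G : Type*} [Group G]

/-- The type of an element. -/
noncomputable def ty (x : G) : ℕ := ∏ p ∈ (orderOf x).primeFactors, p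

/-- The centralizer order. -/
noncomputable def cc (x : G) : ℕ := Nat.card (Subgroup.centralizer ({x} : Set G))

theorem orderOf_conj {x y : G} (h : IsConj x y) : orderOf x = orderOf y := by
  obtain ⟨c, rfl⟩ := isConj_iff.1 h
  exact ((MulAut.conj c).orderOf_eq x).symm

theorem ty_conj {x y : G} (h : IsConj x y) : ty x = ty y := by rw [ty, ty, orderOf_conj h]

theorem cc_conj {x y : G} (h : IsConj x y) : cc x = cc y := by
  obtain ⟨c, rfl⟩ := isConj_iff.1 h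
  refine Nat.card_congr ((MulAut.conj c).toEquiv.subtypeEquiv fun g => ?_)
  simp only [Subgroup.mem_centralizer_singleton_iff, MulEquiv.toEquiv_eq_coe, EquivLike.coe_coe,
    MulAut.conj_apply]
  constructor
  · intro h
    calc c * g * c⁻¹ * (c * x * c⁻¹) = c * (g * x) * c⁻¹ := by group
      _ = c * x * c⁻¹ * (c * g * c⁻¹) := by rw [h]; group
  · intro h
    calc g * x = c⁻¹ * (c * g * c⁻¹ * (c * x * c⁻¹)) * c := by group
      _ = x * g := by rw [h]; group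

theorem prime_dvd_ty [Finite G] {x : G} {r : ℕ} (hr : r.Prime) : r ∣ ty x ↔ r ∣ orderOf x := by
  rw [ty, hr.prime.dvd_finsetProd_iff]
  constructor
  · rintro ⟨p, hp, h⟩
    rw [(Nat.prime_dvd_prime_iff_eq hr (Nat.prime_of_mem_primeFactors hp)).1 h]
    exact Nat.dvd_of_mem_primeFactors hp
  · exact fun h => ⟨r, Nat.mem_primeFactors.2 ⟨hr, h, (orderOf_pos x).ne'⟩, dvd_rfl⟩

theorem ty_dvd (x : G) : ty x ∣ orderOf x := Nat.prod_primeFactors_dvd _

theorem squarefree_ty (x : G) : Squarefree (ty x) :=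
  Finset.squarefree_prod_of_pairwise_isCoprime (fun _ hp _ hq h => Nat.coprime_iff_isRelPrime.1
    ((Nat.coprime_primes (Nat.prime_of_mem_primeFactors hp) (Nat.prime_of_mem_primeFactors hq)).2 h))
    fun _ hp => (Nat.prime_of_mem_primeFactors hp).prime.squarefree

/-- Two square-free numbers with the same prime divisors are equal. -/
theorem ty_eq [Finite G] {x : G} {n : ℕ} (hn : Squarefree n)
    (h : ∀ r, r.Prime → (r ∣ orderOf x ↔ r ∣ n)) : ty x = n := by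
  rw [← Nat.prod_primeFactors_of_squarefree hn, ty]
  refine Finset.prod_congr ?_ fun _ _ => rfl
  ext r
  simp only [Nat.mem_primeFactors, ne_eq, (orderOf_pos x).ne', hn.ne_zero, not_false_eq_true, and_true]
  exact and_congr_right (h r)

theorem ty_eq_prime_iff [Finite G] {x : G} {r : ℕ} (hr : r.Prime) :
    ty x = r ↔ ∃ k, orderOf x = r ^ (k + 1) := by
  constructor
  · intro h
    have h1 : ∀ {q : ℕ}, q.Prime → q ∣ orderOf x → q = r := fun hq hd =>
      (Nat.prime_dvd_prime_iff_eq hq hr).1 (h ▸ (prime_dvd_ty hq).2 hd)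
    have h2 := Nat.eq_prime_pow_of_unique_prime_dvd (orderOf_pos x).ne' h1
    have h3 : r ∣ orderOf x := (prime_dvd_ty hr).1 h.symm.dvd
    rcases hk : (orderOf x).primeFactorsList.length with _ | k
    · rw [h2, hk, pow_zero, Nat.dvd_one] at h3
      exact absurd h3 hr.ne_one
    · exact ⟨k, hk ▸ h2⟩
  · rintro ⟨k, hk⟩
    rw [ty, hk, Nat.primeFactors_prime_pow k.succ_ne_zero hr, prod_singleton]

theorem one_lt_ty [Finite G] {x : G} (hx : x ≠ 1) : 1 < ty x := by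
  obtain ⟨r, hr, h⟩ := Nat.exists_prime_and_dvd (mt orderOf_eq_one_iff.1 hx)
  exact hr.one_lt.trans_le (Nat.le_of_dvd (Nat.pos_of_ne_zero (squarefree_ty x).ne_zero)
    ((prime_dvd_ty hr).2 h))

theorem ne_one_of_ty {x : G} (hx : 1 < ty x) : x ≠ 1 := by
  rintro rfl
  simp [ty] at hx

variable (G) [Finite G]

open Classical in
/-- The non-trivial conjugacy classes. -/
noncomputable def nt : Finset (ConjClasses G) :=
  (@univ _ (Fintype.ofFinite _)).filter fun K => K.out ≠ 1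

/-- The class data of a group. -/
noncomputable def cls : Multiset (ℕ × ℕ) := (nt G).val.map fun K => (ty K.out, cc K.out)

variable {G}

theorem mem_nt {K : ConjClasses G} : K ∈ nt G ↔ K.out ≠ 1 := by simp [nt]

theorem mk_mem_nt {x : G} : ConjClasses.mk x ∈ nt G ↔ x ≠ 1 := by
  rw [mem_nt, not_iff_not]
  have h := CL.Blk.isConjF_out_mk x
  exact ⟨fun e => isConj_one_right.1 (e ▸ h), fun e => isConj_one_left.1 (e ▸ h)⟩

theorem mem_cls {a : ℕ × ℕ} : a ∈ cls G ↔ ∃ x : G, x ≠ 1 ∧ a = (ty x, cc x) := by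
  rw [cls, Multiset.mem_map]
  constructor
  · rintro ⟨K, hK, rfl⟩
    exact ⟨_, mem_nt.1 hK, rfl⟩
  · rintro ⟨x, hx, rfl⟩
    have h := CL.Blk.isConjF_out_mk x
    exact ⟨_, mk_mem_nt.2 hx, by rw [ty_conj h, cc_conj h]⟩

theorem nt_eq [Fintype (ConjClasses G)] [DecidableEq (ConjClasses G)] :
    nt G = univ.erase (ConjClasses.mk 1) := by
  ext K
  rw [mem_erase, and_iff_left (mem_univ _), ← Quotient.out_eq K]
  exact mk_mem_nt.trans (not_congr ⟨fun e => by rw [e]; rfl,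
    fun e => isConj_one_left.1 (ConjClasses.mk_eq_mk_iff_isConj.1 e)⟩)

theorem card_cls : (cls G).card + 1 = Nat.card (ConjClasses G) := by
  classical
  let _ := Fintype.ofFinite (ConjClasses G)
  rw [cls, Multiset.card_map, card_val, nt_eq, card_erase_add_one (mem_univ _), Nat.card_eq_fintype_card,
    card_univ]

open Classical in
theorem cnt_cls (r : ℕ) : cnt (cls G) r = ((nt G).filter fun K => ty K.out = r).card := by
  rw [cnt, cls, Multiset.map_map, Multiset.count_map, card_def, filter_val]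
  simp only [Function.comp, eq_comm]

open Classical in
theorem count_cls (a : ℕ × ℕ) :
    (cls G).count a = ((nt G).filter fun K => (ty K.out, cc K.out) = a).card := by
  rw [cls, Multiset.count_map, card_def, filter_val]
  simp only [eq_comm]

/-- Pairwise non-conjugate elements of type `r` bound the count from below. -/
theorem le_cnt {ι : Type*} (s : Finset ι) (x : ι → G) {r : ℕ} (hr : 1 < r) (hx : ∀ i ∈ s, ty (x i) = r)
    (hi : ∀ i ∈ s, ∀ j ∈ s, IsConj (x i) (x j) → i = j) : s.card ≤ cnt (cls G) r := by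
  classical
  rw [cnt_cls]
  refine card_le_card_of_injOn (fun i => ConjClasses.mk (x i)) (fun i hi => ?_)
    fun i h1 j h2 h => hi i h1 j h2 (ConjClasses.mk_eq_mk_iff_isConj.1 h)
  simp only [coe_filter, Set.mem_ofPred_eq]
  exact ⟨mk_mem_nt.2 (ne_one_of_ty ((hx i hi).symm ▸ hr)),
    (ty_conj (CL.Blk.isConjF_out_mk _)).trans (hx i hi)⟩

theorem cnt_pos_iff {r : ℕ} : 0 < cnt (cls G) r ↔ ∃ x : G, x ≠ 1 ∧ ty x = r := by
  rw [cnt, Multiset.count_pos, Multiset.mem_map]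
  constructor
  · rintro ⟨a, ha, rfl⟩
    obtain ⟨x, hx, rfl⟩ := mem_cls.1 ha
    exact ⟨x, hx, rfl⟩
  · rintro ⟨x, hx, rfl⟩
    exact ⟨_, mem_cls.2 ⟨x, hx, rfl⟩, rfl⟩

omit [Finite G] in
theorem cc_dvd (x : G) : cc x ∣ Nat.card G := Subgroup.card_subgroup_dvd_card _

theorem card_div_cc (x : G) : Nat.card G / cc x = (Subgroup.centralizer ({x} : Set G)).index :=
  Nat.div_eq_of_eq_mul_right Nat.card_pos (Subgroup.card_mul_index _).symm

/-- The sum of a class function, sorted by the non-trivial classes. -/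
theorem sum_nt [Fintype G] {R : Type*} [AddCommMonoid R] (F : G → R) (hF : ∀ x y, IsConj x y → F x = F y) :
    ∑ g, F g = F 1 + ∑ K ∈ nt G, (Nat.card G / cc K.out) • F K.out := by
  classical
  let _ := Fintype.ofFinite (ConjClasses G)
  have h : ∀ K : ConjClasses G, ∑ g ∈ univ.filter (fun g => IsConj K.out g), F g =
      (Nat.card G / cc K.out) • F K.out := fun K => by
    rw [sum_congr rfl fun g hg => (hF _ _ (mem_filter.1 hg).2).symm, sum_const, CL.Blk.cardF_filter_isConj,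
      card_div_cc]
  rw [CL.Blk.sum_eq_sum_classes, sum_congr rfl fun K _ => h K, nt_eq,
    ← add_sum_erase _ _ (mem_univ (ConjClasses.mk (1 : G))),
    isConj_one_left.1 (CL.Blk.isConjF_out_mk (1 : G)), card_div_cc]
  congr 1
  rw [show Subgroup.centralizer ({1} : Set G) = ⊤ from
    eq_top_iff.2 fun g _ => Subgroup.mem_centralizer_singleton_iff.2 (by simp), Subgroup.index_top, one_nsmul]

end Group

end CL.KC
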