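/-
Simple groups with at most eleven conjugacy classes (helper18 for helper79): the character-theoretic data.
-/
import Cfsg.Agent.Known.KC.Defs
import Cfsg.Agent.Loc.SCPrime
import Cfsg.Agent.Spor.PBlock
import Cfsg.Agent.Char.PiSection

set_option autoImplicit false

namespace CL.KC

open Finset Cfsg CL.Char CL.Loc
open scoped Classical

variable {G : Type*} [Group G] [Finite G]

theorem chr_row {χ : IrrCharacter G} (h1 : χ ≠ irrOne G)
    (hu : ∀ ψ : IrrCharacter G, charDegree (ψ : G → ℂ) = charDegree (χ : G → ℂ) → ψ = χ) :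
    Row (Nat.card G) (cls G) (charDegree (χ : G → ℂ)) := by
  have := Fintype.ofFinite G
  have hz : ∀ g, ∃ z : ℤ, (χ : G → ℂ) g = z := fun g =>
    exists_int_of_forall_ringEquiv (isGenChar_isIntegral χ.2.isGeneralizedCharacter g) fun σ => by
      have e := hu (galIrr σ χ) (by
        rw [charDegree, charDegree, galIrr_apply]
        exact congrArg (fun z : ℂ => ⌊z.re⌋₊) (gal_apply_one χ.2.isGeneralizedCharacter σ.toRingHom))
      rw [← galIrr_apply, e]
  choose a ha using hz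
  have hc : ∀ x y, IsConj x y → a x = a y := fun x y e => by
    exact_mod_cast (ha x).symm.trans ((χ.2.isClassFunction.apply_eq_of_isConj e).trans (ha y))
  have a1 : a 1 = charDegree (χ : G → ℂ) := by exact_mod_cast (ha 1).symm.trans χ.2.cast_charDegree.symm
  refine ⟨(nt G).val.map fun K => ((ty K.out, cc K.out), a K.out), by rw [Multiset.map_map]; rfl, fun z hz => ?_,
    ?_, ?_⟩
  · obtain ⟨K, -, rfl⟩ := Multiset.mem_map.1 hz
    refine ⟨?_, fun hp => ?_, fun q hq h2 h3 => ?_, ?_⟩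
    · have := χ.2.isCharacter.norm_le K.out
      rw [ha, Complex.norm_intCast, ← Int.cast_abs, Int.abs_eq_natAbs] at this
      exact_mod_cast this
    · obtain ⟨k, hk⟩ := (ty_eq_prime_iff hp).1 rfl
      exact (CL.Spor.int_value_modEq hp χ.2.isCharacter (orderOf_dvd_iff_pow_eq_one.1 hk.dvd) (ha _)).symm.dvd
    · exact_mod_cast (ha _).symm.trans (irr_eq_zero_of_defect_zero hq χ.2 χ.2.cast_charDegree.symm
        (Nat.mul_div_cancel' (CL.Blk.irr_charDegree_dvd_card χ)).symm h3 ((prime_dvd_ty hq).1 h2))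
    · rw [card_div_cc]
      exact CL.Spor.degree_dvd_index_mul χ (ha _)
  · have h2 : ∑ g, a g = 0 := by
      have := χ.2.sum_eq_zero fun e => h1 (Subtype.ext e)
      simp only [ha] at this
      exact_mod_cast this
    rw [sum_nt a hc, a1] at h2
    rw [Multiset.map_map, ← h2]
    exact congrArg _ (sum_congr rfl fun K _ => by simp [mul_comm])
  · have h2 : ∑ g, a g ^ 2 = Nat.card G := by
      have := irr_sum_norm_sq χ.2
      simp only [ha, Complex.norm_intCast, sq_abs] at this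
      exact_mod_cast this
    rw [sum_nt (fun g => a g ^ 2) fun x y e => by rw [hc x y e], a1] at h2
    rw [Multiset.map_map, ← h2]
    exact congrArg _ (sum_congr rfl fun K _ => by simp [mul_comm])

theorem chr_blk [Fintype G] {p e : ℕ} (hp : p.Prime) (S : SCData G p e) :
    Blk (Nat.card G) p S.Y.card ((univ.erase (irrOne G)).val.map fun χ : IrrCharacter G => charDegree (χ : G → ℂ)) := by
  have ab : ∀ χ ∈ S.X, (S.s χ * charDegree (χ : G → ℂ)).natAbs = charDegree (χ : G → ℂ) := fun χ h => by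
    rcases S.hs χ h with e | e <;> simp [e]
  have au : (S.ε * S.d).natAbs = S.d := by rcases S.hε with e | e <;> simp [e]
  have key : ∀ {n : ℤ} (B : Finset (IrrCharacter G)), n ∣ (p - 1) * ∑ χ ∈ S.X ∩ B, S.s χ * charDegree (χ : G → ℂ) -
      S.ε * e * S.d * (S.Y ∩ B).card → n ∣ (p - 1) * ((S.X ∩ B).val.map
        fun χ => S.s χ * charDegree (χ : G → ℂ)).sum - e * (S.ε * S.d) * (S.Y ∩ B).card := fun B h =>
    h.trans (dvd_of_eq (by rw [← sum_eq_multiset_sum]; ring))
  have le : ∀ B : Finset (IrrCharacter G), ((S.X ∩ B).val.map fun χ => S.s χ * charDegree (χ : G → ℂ)) ≤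
      S.X.val.map fun χ => S.s χ * charDegree (χ : G → ℂ) := fun B =>
    Multiset.map_le_map (val_le_iff.2 inter_subset_left)
  refine ⟨S.X.val.map fun χ => S.s χ * charDegree (χ : G → ℂ), S.ε * S.d, e,
    ((univ.erase (irrOne G)) \ (S.X ∪ S.Y)).val.map fun χ : IrrCharacter G => charDegree (χ : G → ℂ), ?_, ?_, ?_, fun x hx => ?_,
    S.rel, fun w hw => ?_, fun q a i hq hqp hd => ⟨fun x hx hi => ?_, fun hi => ?_⟩⟩
  · have := S.card_Y
    have := hp.pos
    omega
  · rw [Multiset.card_map, card_val, S.card_X]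
  · have h1 : S.X ∪ S.Y ⊆ univ.erase (irrOne G) := fun χ h => mem_erase.2
      ⟨(mem_union.1 h).elim S.ne_one_X S.ne_one_Y, mem_univ _⟩
    conv_lhs => rw [← union_sdiff_of_subset h1, ← disjUnion_eq_union _ _ disjoint_sdiff, disjUnion_val,
      ← disjUnion_eq_union _ _ S.disj, disjUnion_val, Multiset.map_add, Multiset.map_add]
    rw [disjUnion_eq_union, Multiset.map_map, au, Multiset.map_congr rfl S.deg_Y, Multiset.map_const',
      Multiset.map_congr rfl fun χ h => (ab χ h).symm]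
    rfl
  · obtain ⟨χ, hχ, rfl⟩ := Multiset.mem_map.1 hx
    have h1 := ((S.deg_X χ hχ).mul_left (S.s χ)).symm.dvd
    rwa [show S.s χ * S.s χ = 1 by rcases S.hs χ hχ with e | e <;> simp [e]] at h1
  · obtain ⟨χ, hχ, rfl⟩ := Multiset.mem_map.1 hw
    obtain ⟨h1, h2⟩ := mem_sdiff.1 hχ
    exact by_contra fun h => h2 (mem_union.2 (S.mem χ (ne_of_mem_erase h1) h))
  · obtain ⟨χ, hχ, rfl⟩ := Multiset.mem_map.1 hx
    obtain ⟨B, hB, h1⟩ := S.bt q a i hq hqp hd χ (S.ne_one_X hχ) ((ab χ hχ).symm.trans hi)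
    exact ⟨_, le B, Multiset.mem_map_of_mem _ (mem_inter.2 ⟨hχ, hB⟩), _, card_le_card inter_subset_left, key B h1⟩
  · obtain ⟨η, hη⟩ := S.exists_Y hp
    obtain ⟨B, hB, h1⟩ := S.bt q a i hq hqp hd η (S.ne_one_Y hη) ((S.deg_Y η hη).trans (au.symm.trans hi))
    exact ⟨_, le B, _, card_pos.2 ⟨η, mem_inter.2 ⟨hη, hB⟩⟩, card_le_card inter_subset_left, key B h1⟩

theorem chr_sq {p : ℕ} (hp : p.Prime) {x : G} (h1 : x ≠ 1) (hc : cc x = p) : orderOf x = p ∧
    Subgroup.centralizer ({x} : Set G) = Subgroup.zpowers x ∧ ¬ p ^ 2 ∣ Nat.card G := by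
  have := Fact.mk hp
  have hm : x ∈ Subgroup.centralizer ({x} : Set G) := Subgroup.mem_centralizer_singleton_iff.2 rfl
  have hx : orderOf x = p := ((Nat.dvd_prime hp).1 (hc ▸ Subgroup.orderOf_dvd_natCard _ hm)).resolve_left
    (mt orderOf_eq_one_iff.1 h1)
  refine ⟨hx, (Subgroup.eq_of_le_of_card_ge (Subgroup.zpowers_le.2 hm) (by
    rw [Nat.card_zpowers, hx]; exact hc.le)).symm, fun h => ?_⟩
  obtain ⟨P, hP⟩ := (IsPGroup.of_card (n := 1) (by rw [Nat.card_zpowers, hx, pow_one]) :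
    IsPGroup p (Subgroup.zpowers x)).exists_le_sylow
  have h2 : p ^ 2 ∣ Nat.card P := by
    rw [P.card_eq_multiplicity]
    exact pow_dvd_pow _ ((hp.pow_dvd_iff_le_factorization Nat.card_pos.ne').1 h)
  obtain ⟨z, hz1, hzP, hz⟩ := Inv.PO.exists_central_of_dvd (hx.symm.dvd.trans (orderOf_dvd_natCard x)) P
  have h3 : Subgroup.zpowers z = Subgroup.centralizer ({x} : Set G) := by
    have h4 : Subgroup.zpowers z ≤ Subgroup.centralizer ({x} : Set G) := Subgroup.zpowers_le.2
      (Subgroup.mem_centralizer_singleton_iff.2 (hz x (hP (Subgroup.mem_zpowers x))).symm)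
    have : Fact (Nat.card (Subgroup.centralizer ({x} : Set G))).Prime := ⟨by rw [← cc, hc]; exact hp⟩
    rcases (Nat.dvd_prime hp).1 ((Subgroup.card_dvd_of_le h4).trans hc.dvd) with e | e
    · exact absurd (Subgroup.zpowers_eq_bot.1 (Subgroup.card_eq_one.1 e)) hz1
    · exact Subgroup.eq_of_le_of_card_ge h4 (by rw [e]; exact hc.le)
  have h5 : (P : Subgroup G) ≤ Subgroup.centralizer ({x} : Set G) := fun a ha => by
    obtain ⟨k, rfl⟩ := Subgroup.mem_zpowers_iff.1 (h3 ▸ hm : x ∈ Subgroup.zpowers z)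
    exact Subgroup.mem_centralizer_singleton_iff.2 (Commute.zpow_right (hz a ha) k)
  have h6 := Nat.le_of_dvd hp.pos ((h2.trans (Subgroup.card_dvd_of_le h5)).trans hc.dvd)
  nlinarith [hp.two_le]

theorem chr_of [IsSimpleGroup G] (hc : ∀ {p} (_ : p.Prime) {x : G}, orderOf x = p → ¬ p ^ 2 ∣ Nat.card G →
      (Subgroup.centralizer ({x} : Set G)).relIndex (Subgroup.normalizer (Subgroup.zpowers x : Set G)) *
        cnt (cls G) p = p - 1) (hG : ¬ IsMulCommutative G) : Chr (Nat.card G) (cls G) := by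
  have := Fintype.ofFinite G
  refine ⟨(univ.erase (irrOne G)).val.map fun χ : IrrCharacter G => charDegree (χ : G → ℂ), ?_, ?_, fun d hd => ?_, fun d hd => ?_,
    fun p hp h => ?_⟩
  · have h1 := card_cls (G := G)
    rw [← card_irr_eq_card_conjClasses, Nat.card_eq_fintype_card, ← card_univ,
      ← card_erase_add_one (mem_univ (irrOne G))] at h1
    rw [Multiset.card_map, card_val]
    omega
  · rw [Multiset.map_map, ← sum_charDegree_sq, ← add_sum_erase _ _ (mem_univ (irrOne G)),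
      show charDegree (irrOne G : G → ℂ) = 1 from CL.Blk.charDegree_const_one]
    rfl
  · obtain ⟨χ, hχ, rfl⟩ := Multiset.mem_map.1 hd
    exact ⟨(deg_facts hG (ne_of_mem_erase hχ)).1, (deg_facts hG (ne_of_mem_erase hχ)).2.1⟩
  · rw [Multiset.count_map, ← filter_val, card_val, card_eq_one] at hd
    obtain ⟨χ, hχ⟩ := hd
    obtain ⟨h1, rfl⟩ := mem_filter.1 (hχ ▸ mem_singleton_self χ : χ ∈ filter _ _)
    refine chr_row (ne_of_mem_erase h1) fun ψ e => mem_singleton.1 (hχ ▸ mem_filter.2 ⟨mem_erase.2 ⟨?_, mem_univ _⟩,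
      e.symm⟩)
    rintro rfl
    have := (deg_facts hG (ne_of_mem_erase h1)).1
    rw [← e, show charDegree (irrOne G : G → ℂ) = 1 from CL.Blk.charDegree_const_one] at this
    omega
  · obtain ⟨x, h1, e⟩ := mem_cls.1 h
    obtain ⟨hx, h2, h3⟩ := chr_sq hp h1 (congrArg Prod.snd e).symm
    have := Fact.mk hp
    obtain ⟨S⟩ := nonempty_scData hG hx h2
    have h4 := S.card_X
    rw [← Nat.eq_of_mul_eq_mul_left (by omega) (S.card_Y.trans (hc hp hx h3).symm)]
    exact chr_blk hp S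

end CL.KC
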