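/-
Classes of elements of prime order `p`: the automizer as a group of units modulo `p`.
-/
import Cfsg.Agent.Known.KC.Defs

set_option autoImplicit false

namespace CL.KC

open Subgroup

variable {G : Type*} [Group G] {p : ℕ}

/-- The power of `x` attached to a unit modulo `p`. -/
def pw (x : G) (a : (ZMod p)ˣ) : G := x ^ (a : ZMod p).val

theorem pw_mem (x : G) (a : (ZMod p)ˣ) : pw x a ∈ zpowers x := pow_mem (mem_zpowers x) _

theorem pw_mul {x : G} (hx : orderOf x = p) (a b : (ZMod p)ˣ) [NeZero p] :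
    pw x (a * b) = pw x a ^ (b : ZMod p).val := by
  have := pow_mod_orderOf x ((a : ZMod p).val * (b : ZMod p).val)
  rw [hx] at this
  rw [pw, pw, Units.val_mul, ZMod.val_mul, ← pow_mul, this]

variable [hp : Fact p.Prime] {x : G}

theorem pw_one : pw x (1 : (ZMod p)ˣ) = x := by
  rw [pw, Units.val_one, ZMod.val_one, pow_one]

theorem pw_inj (hx : orderOf x = p) {a b : (ZMod p)ˣ} (h : pw x a = pw x b) : a = b :=
  Units.ext (ZMod.val_injective p (pow_injOn_Iio_orderOf (x := x)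
    (by rw [hx]; exact ZMod.val_lt _) (by rw [hx]; exact ZMod.val_lt _) h))

theorem exists_pw (hx : orderOf x = p) {y : G} (hy : y ∈ zpowers x) (h1 : y ≠ 1) :
    ∃ a : (ZMod p)ˣ, y = pw x a := by
  have hf : IsOfFinOrder x := orderOf_pos_iff.1 (hx ▸ hp.out.pos)
  obtain ⟨n, rfl⟩ := hf.mem_powers_iff_mem_zpowers.2 hy
  have hn : (n : ZMod p) ≠ 0 := fun h => h1 (orderOf_dvd_iff_pow_eq_one.1
    (hx ▸ (ZMod.natCast_eq_zero_iff n p).1 h))
  refine ⟨Units.mk0 _ hn, ?_⟩
  have := pow_mod_orderOf x n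
  rw [hx] at this
  rw [pw, Units.val_mk0, ZMod.val_natCast, this]

theorem zpowers_pw (hx : orderOf x = p) (a : (ZMod p)ˣ) : zpowers (pw x a) = zpowers x := by
  refine le_antisymm (zpowers_le.2 (pw_mem x a)) (zpowers_le.2 ?_)
  have : pw x a ^ ((a⁻¹ : (ZMod p)ˣ) : ZMod p).val = x := by rw [← pw_mul hx, mul_inv_cancel, pw_one]
  exact this.subst (motive := (· ∈ zpowers (pw x a))) (pow_mem (mem_zpowers _) _)

theorem orderOf_pw (hx : orderOf x = p) (a : (ZMod p)ˣ) : orderOf (pw x a) = p := by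
  rw [← Nat.card_zpowers, zpowers_pw hx, Nat.card_zpowers, hx]

/-- The units `a` with `x ^ a` conjugate to `x`. -/
def autE (hx : orderOf x = p) : Subgroup (ZMod p)ˣ where
  carrier := {a | IsConj x (pw x a)}
  one_mem' := by rw [Set.mem_ofPred_eq, pw_one]
  mul_mem' {a b} ha hb := by
    rw [Set.mem_ofPred_eq, pw_mul hx]
    exact IsConj.trans hb (IsConj.pow _ ha)
  inv_mem' {a} ha := by
    have := IsConj.pow ((a⁻¹ : (ZMod p)ˣ) : ZMod p).val ha
    rw [← pw_mul hx, mul_inv_cancel, pw_one] at this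
    exact this.symm

theorem isConj_pw_iff (hx : orderOf x = p) {a b : (ZMod p)ˣ} :
    IsConj (pw x a) (pw x b) ↔ a⁻¹ * b ∈ autE hx := by
  constructor
  · intro h
    have := IsConj.pow ((a⁻¹ : (ZMod p)ˣ) : ZMod p).val h
    rw [← pw_mul hx, ← pw_mul hx, mul_inv_cancel, pw_one, mul_comm] at this
    exact this
  · intro h
    have := IsConj.pow (a : ZMod p).val (show IsConj x (pw x (a⁻¹ * b)) from h)
    rw [← pw_mul hx, mul_comm a⁻¹, inv_mul_cancel_right] at this
    exact this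

theorem exists_autHom (hx : orderOf x = p) :
    ∃ φ : normalizer (zpowers x : Set G) →* (ZMod p)ˣ, φ.range = autE hx ∧
      φ.ker = (centralizer ({x} : Set G)).subgroupOf _ := by
  have hx1 : x ≠ 1 := fun h => hp.out.ne_one (by rw [← hx, h, orderOf_one])
  have h : ∀ w : normalizer (zpowers x : Set G), ∃ a : (ZMod p)ˣ, (w : G) * x * (w : G)⁻¹ = pw x a :=
    fun w => exists_pw hx ((mem_normalizer_iff.1 w.2 x).1 (mem_zpowers x)) (by simpa using hx1)
  choose f hf using h
  refine ⟨MonoidHom.mk' f fun v w => pw_inj hx ?_, ?_, ?_⟩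
  · rw [← hf, pw_mul hx, ← hf, conj_pow, ← pw, ← hf, coe_mul]
    group
  · ext a
    constructor
    · rintro ⟨w, rfl⟩
      exact isConj_iff.2 ⟨w, hf w⟩
    · intro ha
      obtain ⟨c, hc⟩ := isConj_iff.1 (show IsConj x (pw x a) from ha)
      have hN : c ∈ normalizer (zpowers x : Set G) := by
        have h1 : (zpowers x).map (MulAut.conj c).toMonoidHom = zpowers x := by
          rw [MonoidHom.map_zpowers]
          exact (congrArg zpowers hc).trans (zpowers_pw hx a)
        refine mem_normalizer_iff.2 fun g => ⟨fun hg => h1 ▸ ⟨g, hg, rfl⟩, fun hg => ?_⟩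
        obtain ⟨k, hk, e⟩ := (h1.ge hg : _ ∈ (zpowers x).map _)
        obtain rfl : k = g := (MulAut.conj c).injective e
        exact hk
      exact ⟨⟨c, hN⟩, pw_inj hx ((hf _).symm.trans hc)⟩
  · ext w
    rw [MonoidHom.mem_ker, mem_subgroupOf, mem_centralizer_singleton_iff, ← mul_inv_eq_iff_eq_mul, hf]
    exact ⟨fun h => by rw [show f w = 1 from h, pw_one], fun h => pw_inj hx (h.trans pw_one.symm)⟩

theorem card_autE (hx : orderOf x = p) :
    Nat.card (autE hx) = (centralizer ({x} : Set G)).relIndex (normalizer (zpowers x : Set G)) := by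
  obtain ⟨φ, h1, h2⟩ := exists_autHom hx
  rw [← h1, ← index_ker, h2, relIndex]

theorem card_mul_index_autE (hx : orderOf x = p) : Nat.card (autE hx) * (autE hx).index = p - 1 := by
  rw [card_mul_index, Nat.card_eq_fintype_card, ZMod.card_units]

variable [Finite G]

theorem index_autE_le (hx : orderOf x = p) : (autE hx).index ≤ cnt (cls G) p := by
  classical
  let _ := Fintype.ofFinite ((ZMod p)ˣ ⧸ autE hx)
  rw [index, Nat.card_eq_fintype_card, ← Finset.card_univ]
  refine le_cnt _ (fun K => pw x K.out) hp.out.one_lt (fun K _ => ?_) fun K _ L _ h => ?_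
  · exact (ty_eq_prime_iff hp.out).2 ⟨0, by rw [orderOf_pw hx, zero_add, pow_one]⟩
  · rw [← K.out_eq, ← L.out_eq]
    exact QuotientGroup.eq.2 ((isConj_pw_iff hx).1 h)

/-- An element whose order is the order of the automizer. -/
theorem exists_orderOf_autE (hx : orderOf x = p) : ∃ w : G, orderOf w = Nat.card (autE hx) := by
  obtain ⟨φ, h1, -⟩ := exists_autHom hx
  obtain ⟨a, ha⟩ := IsCyclic.exists_ofOrder_eq_natCard (α := autE hx)
  obtain ⟨w, hw⟩ : (a : (ZMod p)ˣ) ∈ φ.range := h1.ge a.2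
  have hd : Nat.card (autE hx) ∣ orderOf (w : G) := by
    rw [← ha, ← orderOf_coe a, ← hw, orderOf_coe w]
    exact orderOf_map_dvd φ w
  exact ⟨(w : G) ^ (orderOf (w : G) / Nat.card (autE hx)), orderOf_pow_orderOf_div (orderOf_pos _).ne' hd⟩

theorem exists_sylow_eq (hx : orderOf x = p) (h2 : ¬ p ^ 2 ∣ Nat.card G) :
    ∃ P : Sylow p G, zpowers x = P := by
  obtain ⟨P, hP⟩ := (IsPGroup.of_card (n := 1) (by rw [Nat.card_zpowers, hx, pow_one]) :
    IsPGroup p (zpowers x)).exists_le_sylow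
  refine ⟨P, eq_of_le_of_card_ge hP ?_⟩
  obtain ⟨k, hk⟩ := P.isPGroup'.exists_card_eq
  rw [Nat.card_zpowers, hx, hk]
  by_contra h
  refine h2 ((pow_dvd_pow p ?_).trans (hk.symm.dvd.trans (card_subgroup_dvd_card _)))
  by_contra h3
  exact h ((Nat.pow_le_pow_right hp.out.pos (by omega : k ≤ 1)).trans (pow_one p).le)

/-- With a Sylow subgroup of order `p`, an element of type `p` is conjugate to a generator. -/
theorem exists_isConj_pw (hx : orderOf x = p) (h2 : ¬ p ^ 2 ∣ Nat.card G) {y : G} (hy : ty y = p) :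
    ∃ a : (ZMod p)ˣ, IsConj y (pw x a) := by
  obtain ⟨P, hP⟩ := exists_sylow_eq hx h2
  obtain ⟨k, hk⟩ := (ty_eq_prime_iff hp.out).1 hy
  obtain ⟨Q, hQ⟩ := (IsPGroup.of_card (n := k + 1) (by rw [Nat.card_zpowers, hk]) :
    IsPGroup p (zpowers y)).exists_le_sylow
  obtain ⟨g, hg⟩ := MulAction.exists_smul_eq G Q P
  have hm : g * y * g⁻¹ ∈ zpowers x := by
    rw [hP, ← hg]
    exact smul_mem_pointwise_smul y (MulAut.conj g) _ (hQ (mem_zpowers y))
  have hy1 : y ≠ 1 := ne_one_of_ty (hy ▸ hp.out.one_lt)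
  obtain ⟨a, ha⟩ := exists_pw hx hm (by simpa using hy1)
  exact ⟨a, isConj_iff.2 ⟨g, ha⟩⟩

theorem cnt_eq_index (hx : orderOf x = p) (h2 : ¬ p ^ 2 ∣ Nat.card G) :
    cnt (cls G) p = (autE hx).index := by
  classical
  refine le_antisymm ?_ (index_autE_le hx)
  let _ := Fintype.ofFinite ((ZMod p)ˣ ⧸ autE hx)
  rw [index, Nat.card_eq_fintype_card, ← Finset.card_univ, cnt_cls]
  refine Finset.card_le_card_of_surjOn (fun K => ConjClasses.mk (pw x K.out)) fun K hK => ?_
  obtain ⟨a, ha⟩ := exists_isConj_pw hx h2 (Finset.mem_filter.1 hK).2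
  refine ⟨(a : (ZMod p)ˣ ⧸ autE hx), Finset.mem_univ _, ?_⟩
  rw [← K.out_eq]
  refine ConjClasses.mk_eq_mk_iff_isConj.2 (IsConj.trans ?_ ha.symm)
  exact (isConj_pw_iff hx).2 (QuotientGroup.eq.1 (Quotient.out_eq _))

omit hp in
/-- With a Sylow subgroup of order `p`, the automizer order times the number of classes is `p - 1`. -/
theorem cnt_mul (hp : p.Prime) (hx : orderOf x = p) (h2 : ¬ p ^ 2 ∣ Nat.card G) :
    (centralizer ({x} : Set G)).relIndex (normalizer (zpowers x : Set G)) * cnt (cls G) p = p - 1 := by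
  have : Fact p.Prime := ⟨hp⟩
  rw [cnt_eq_index hx h2, ← card_autE hx, card_mul_index_autE]

end CL.KC
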