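/-
The local conditions on the class data of a simple group with few classes.
-/
import Cfsg.Agent.Known.KC.Cnt
import Cfsg.Agent.Spor.PBlock
import Cfsg.Agent.Fgs.PSmall
import Cfsg.Agent.Fgs.PiPart
import Cfsg.Agent.Inv.Small1
import Cfsg.Agent.Grp.Cores
import Cfsg.Agent.Char.Orth2

set_option autoImplicit false

namespace CL.KC

open Subgroup Cfsg

variable {G : Type*} [Group G] [Finite G]

namespace DB

theorem exists_cent {r : ℕ} [Fact r.Prime] {P : Subgroup G} (hP : IsPGroup r P) (h : P ≠ ⊥) :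
    ∃ z ∈ P, orderOf z = r ∧ ∀ g ∈ P, g * z = z * g := by
  have : Nontrivial P := (nontrivial_iff_ne_bot P).2 h
  obtain ⟨z, -, h1, h2⟩ := CL.Fgs.exists_orderOf_eq_mem_center_of_normal hP ⊤ top_ne_bot
  exact ⟨z, z.2, (orderOf_coe z).trans h1, fun g hg => congrArg Subtype.val (mem_center_iff.1 h2 ⟨g, hg⟩)⟩

theorem exists_syl {r : ℕ} [Fact r.Prime] {Q C : Subgroup G} (hQ : IsPGroup r Q) (h : Q ≤ C) :
    ∃ T : Subgroup G, Q ≤ T ∧ T ≤ C ∧ IsPGroup r T ∧ ¬ r ∣ T.relIndex C := by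
  obtain ⟨P, hP⟩ := (hQ.comap_subtype (K := C)).exists_le_sylow
  refine ⟨(P : Subgroup C).map C.subtype, fun g hg => ⟨⟨g, h hg⟩, hP hg, rfl⟩, map_subtype_le _,
    P.isPGroup'.map _, ?_⟩
  rw [relIndex, subgroupOf, comap_map_eq_self_of_injective C.subtype_injective]
  exact P.not_dvd_index

omit [Finite G] in
theorem orderOf_dvd_cc (x : G) : orderOf x ∣ cc x :=
  orderOf_dvd_natCard _ (mem_centralizer_singleton_iff.2 rfl)

omit [Finite G] in
theorem cent_le {x y : G} (h : x ∈ zpowers y) : centralizer ({y} : Set G) ≤ centralizer {x} := by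
  obtain ⟨k, rfl⟩ := mem_zpowers_iff.1 h
  exact fun g hg => mem_centralizer_singleton_iff.2
    (Commute.zpow_right (mem_centralizer_singleton_iff.1 hg) k)

theorem ty_mul {y z : G} {r k : ℕ} (hr : r.Prime) (h : orderOf z = r ^ (k + 1) * orderOf y)
    (hy : ¬ r ∣ orderOf y) : ty z = ty y * r := by
  refine ty_eq ((Nat.squarefree_mul ((Nat.Prime.coprime_iff_not_dvd hr).2
    (mt (prime_dvd_ty hr).1 hy)).symm).2 ⟨squarefree_ty y, hr.prime.squarefree⟩) fun q hq => ?_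
  rw [h, hq.dvd_mul, hq.dvd_mul, prime_dvd_ty hq, or_comm, hq.prime.dvd_pow_iff_dvd k.succ_ne_zero]

theorem parent {x : G} {r : ℕ} (hr : r.Prime) (h1 : r ∣ ty x) (h2 : ty x ≠ r) :
    ∃ y : G, y ≠ 1 ∧ ty y * r = ty x ∧ cc x ∣ cc y := by
  obtain ⟨e, m, hm, h⟩ := Nat.exists_eq_pow_mul_and_not_dvd (orderOf_pos x).ne' r hr.ne_one
  rcases e with _ | e
  · exact absurd (by simpa [h] using (prime_dvd_ty hr).1 h1) hm
  have ho : orderOf (x ^ r ^ (e + 1)) = m := by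
    rw [orderOf_pow_of_dvd (pow_ne_zero _ hr.ne_zero) (Dvd.intro _ h.symm), h,
      Nat.mul_div_cancel_left _ (pow_pos hr.pos _)]
  refine ⟨x ^ r ^ (e + 1), fun h0 => h2 ((ty_eq_prime_iff hr).2 ⟨e, ?_⟩),
    (ty_mul hr (k := e) (ho.symm ▸ h) (ho.symm ▸ hm)).symm,
    card_dvd_of_le (cent_le (pow_mem (mem_zpowers x) _))⟩
  rw [h, ← ho, h0, orderOf_one, mul_one]

theorem child {x : G} (hx : x ≠ 1) {r : ℕ} (hr : r.Prime) (h1 : ¬ r ∣ ty x) (h2 : r ∣ cc x) :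
    ∃ y : G, y ≠ 1 ∧ ty y = ty x * r ∧ cc y ∣ cc x ∧ ¬ r ∣ cc x / cc y := by
  have : Fact r.Prime := ⟨hr⟩
  obtain ⟨T, -, hTC, hT, hi⟩ := exists_syl (IsPGroup.of_bot (p := r)) (bot_le (a := centralizer {x}))
  have hT0 : T ≠ ⊥ := by
    rintro rfl
    rw [relIndex_bot_left] at hi
    exact hi h2
  obtain ⟨z, hz, ho, hc⟩ := exists_cent hT hT0
  have hxz : Commute x z := (mem_centralizer_singleton_iff.1 (hTC hz)).symm
  have h1' : ¬ r ∣ orderOf x := mt (prime_dvd_ty hr).2 h1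
  have hco : (orderOf x).Coprime (orderOf z) := ho ▸ ((Nat.Prime.coprime_iff_not_dvd hr).2 h1').symm
  have hle := cent_le (CL.Fgs.mem_zpowers_mul_of_coprime hxz hco)
  have hty : ty (x * z) = ty x * r := ty_mul hr (k := 0) (by
    rw [hxz.orderOf_mul_eq_mul_orderOf_of_coprime hco, ho, zero_add, pow_one, mul_comm]) h1'
  refine ⟨x * z, ne_one_of_ty (hty ▸ Nat.one_lt_mul_iff.2 ⟨(one_lt_ty hx).le.trans_lt' one_pos,
    hr.pos, Or.inr hr.one_lt⟩), hty, card_dvd_of_le hle, fun h => hi (h.trans ?_)⟩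
  rw [cc, cc, ← CL.Grp.card_mul_relIndex hle, Nat.mul_div_cancel_left _ Nat.card_pos]
  refine relIndex_dvd_of_le_left _ fun g hg => mem_centralizer_singleton_iff.2 ?_
  rw [← mul_assoc, mem_centralizer_singleton_iff.1 (hTC hg), mul_assoc, hc g hg, mul_assoc]

theorem le_cnt_of_dvd (w : G) {r k : ℕ} (hr : r.Prime) (h : r ^ k ∣ orderOf w) : k ≤ cnt (cls G) r := by
  have ho : ∀ j ∈ Finset.range k, orderOf (w ^ (orderOf w / r ^ (j + 1))) = r ^ (j + 1) := fun j hj =>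
    orderOf_pow_orderOf_div (orderOf_pos w).ne' ((pow_dvd_pow r (Finset.mem_range.1 hj)).trans h)
  have := le_cnt (Finset.range k) (fun j => w ^ (orderOf w / r ^ (j + 1))) hr.one_lt
    (fun j hj => (ty_eq_prime_iff hr).2 ⟨j, ho j hj⟩) fun i hi j hj h => by
      have := orderOf_conj h
      rw [ho i hi, ho j hj] at this
      exact Nat.succ_injective (Nat.pow_right_injective hr.two_le this)
  rwa [Finset.card_range] at this

theorem aut {p : ℕ} (hp : p.Prime) (h : 0 < cnt (cls G) p) : ∃ n e, p = n * e + 1 ∧ n ≤ cnt (cls G) p ∧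
    (∀ r k, r.Prime → r ^ k ∣ e → k ≤ cnt (cls G) r) ∧ (e = 1 ∨ ∃ a ∈ cls G, a.1 ∣ e ∧ e ∣ a.1 ^ e) := by
  have : Fact p.Prime := ⟨hp⟩
  obtain ⟨y, -, hy⟩ := cnt_pos_iff.1 h
  have hx := orderOf_pow_orderOf_div (orderOf_pos y).ne' ((prime_dvd_ty hp).1 hy.symm.dvd)
  obtain ⟨w, hw⟩ := exists_orderOf_autE hx
  refine ⟨(autE hx).index, orderOf w, ?_, index_autE_le hx, fun r k hr => le_cnt_of_dvd w hr, ?_⟩
  · rw [hw, mul_comm, card_mul_index_autE, Nat.sub_add_cancel hp.pos]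
  · by_cases h1 : w = 1
    · exact Or.inl (orderOf_eq_one_iff.2 h1)
    · exact Or.inr ⟨_, mem_cls.2 ⟨w, h1, rfl⟩, ty_dvd w,
        Nat.dvd_prod_primeFactors_pow_self (orderOf_pos w).ne'⟩

theorem syl_aux {x : G} {p : ℕ} (hp : p.Prime) (hx : ty x = p) (h : ¬ p ^ 2 ∣ cc x) :
    orderOf x = p ∧ ¬ p ^ 2 ∣ Nat.card G := by
  have : Fact p.Prime := ⟨hp⟩
  obtain ⟨k, hk⟩ := (ty_eq_prime_iff hp).1 hx
  obtain rfl : k = 0 := by
    by_contra h0
    exact h ((pow_dvd_pow p (by omega)).trans (hk.symm.dvd.trans (orderOf_dvd_cc x)))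
  rw [zero_add, pow_one] at hk
  refine ⟨hk, fun h2 => h ?_⟩
  obtain ⟨P, hP⟩ := (IsPGroup.of_card (n := 1) (by rw [Nat.card_zpowers, hk, pow_one]) :
    IsPGroup p (zpowers x)).exists_le_sylow
  have hx1 : x ≠ 1 := ne_one_of_ty (hx ▸ hp.one_lt)
  obtain ⟨z, hz, ho, hc⟩ := exists_cent P.isPGroup' fun h0 => hx1 (mem_bot.1 (h0 ▸ hP (mem_zpowers x)))
  obtain ⟨j, hj⟩ := (P.isPGroup'.to_inf_left (K := centralizer {x})).exists_card_eq
  have hQ : zpowers x = (P : Subgroup G) ⊓ centralizer {x} := by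
    refine eq_of_le_of_card_ge (le_inf hP (zpowers_le.2 (mem_centralizer_singleton_iff.2 rfl))) ?_
    rw [hj, Nat.card_zpowers, hk]
    refine (Nat.pow_le_pow_right hp.pos ?_).trans (pow_one p).le
    by_contra h0
    exact h ((pow_dvd_pow p (by omega)).trans (hj.symm.dvd.trans (card_dvd_of_le inf_le_right)))
  have hzx : zpowers z = zpowers x := eq_of_le_of_card_ge (zpowers_le.2 (hQ.ge (mem_inf.2
    ⟨hz, mem_centralizer_singleton_iff.2 (hc x (hP (mem_zpowers x))).symm⟩)))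
    (by rw [Nat.card_zpowers, Nat.card_zpowers, hk, ho])
  exact (P.pow_dvd_card_of_pow_dvd_card h2).trans (card_dvd_of_le fun g hg =>
    cent_le (hzx.ge (mem_zpowers x)) (mem_centralizer_singleton_iff.2 (hc g hg)))

theorem cc_eq {x y : G} {p : ℕ} (hp : p.Prime) (hx : orderOf x = p) (h2 : ¬ p ^ 2 ∣ Nat.card G)
    (hy : ty y = p) : cc y = cc x := by
  have : Fact p.Prime := ⟨hp⟩
  obtain ⟨a, ha⟩ := exists_isConj_pw hx h2 hy
  rw [cc_conj ha, cc, cc, le_antisymm (cent_le ((zpowers_pw hx a).ge (mem_zpowers x))) (cent_le (pw_mem x a))]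

theorem syl_e [IsSimpleGroup G] (hG : ¬ IsMulCommutative G) (hk : Nat.card (ConjClasses G) ≤ 11)
    {x : G} {p : ℕ} (hp : p.Prime) (hx : orderOf x = p) (h2 : ¬ p ^ 2 ∣ Nat.card G) :
    ∃ e, 2 ≤ e ∧ p = e * cnt (cls G) p + 1 ∧ e + cnt (cls G) p ≤ 11 := by
  classical
  have : Fact p.Prime := ⟨hp⟩
  have hm := cnt_mul hp hx h2
  have hCN : centralizer ({x} : Set G) ≤ normalizer (zpowers x : Set G) :=
    CL.Blk.centralizer_zpowers_eq x ▸ centralizer_le_normalizer _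
  obtain ⟨B⟩ := CL.Spor.nonempty_PB hp hx h2
  have he : (centralizer ({x} : Set G)).relIndex (normalizer (zpowers x : Set G)) = B.e :=
    Nat.eq_of_mul_eq_mul_left Nat.card_pos ((CL.Grp.card_mul_relIndex hCN).trans
      (B.card_N.trans (mul_comm _ _)))
  have h1 : B.e ≠ 1 := fun h => by
    obtain ⟨P, hP⟩ := exists_sylow_eq hx h2
    rw [← he, relIndex_eq_one, ← CL.Blk.centralizer_zpowers_eq, hP] at h
    exact Inv.not_normalizer_le_centralizer_of_perfect (Inv.commutator_eq_top_of_simple hG)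
      (hx.symm.dvd.trans (orderOf_dvd_natCard x)) P h
  have h0 : B.e ≠ 0 := he ▸ index_ne_zero_of_finite
  rw [he] at hm
  refine ⟨B.e, by omega, by rw [hm, Nat.sub_add_cancel hp.pos], le_trans ?_ hk⟩
  have hY : cnt (cls G) p = B.Y.card := Nat.eq_of_mul_eq_mul_left (Nat.pos_of_ne_zero h0) (hm.trans B.card_Y.symm)
  have := Fintype.ofFinite (IrrCharacter G)
  rw [hY, ← B.card_X, ← Finset.card_union_of_disjoint (Finset.disjoint_left.2 B.disj),
    ← CL.Char.card_irr_eq_card_conjClasses, Nat.card_eq_fintype_card]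
  exact Finset.card_le_univ _

omit [Finite G] in
theorem comm_of {y g : G} (h2 : g ∈ centralizer ({y ^ 2} : Set G)) (h3 : g * y ^ 3 = y ^ 3 * g) :
    g ∈ centralizer ({y} : Set G) := by
  have := (show Commute g (y ^ 3) from h3).mul_right
    (show Commute g (y ^ 2) from mem_centralizer_singleton_iff.1 h2).inv_right
  rw [show y ^ 3 * (y ^ 2)⁻¹ = y by group] at this
  exact mem_centralizer_singleton_iff.2 this

theorem six_aux {y : G} (h6 : ty y = 6) (hc : cc y = 6) : orderOf y = 6 ∧ ¬ 2 ^ 2 ∣ cc (y ^ 2) := by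
  classical
  have ho : orderOf y = 6 := Nat.dvd_antisymm (hc ▸ orderOf_dvd_cc y) (h6 ▸ ty_dvd y)
  refine ⟨ho, fun h4 => ?_⟩
  have hC : zpowers y = centralizer {y} := eq_of_le_of_card_ge
    (zpowers_le.2 (mem_centralizer_singleton_iff.2 rfl)) (by rw [Nat.card_zpowers, ho]; exact hc.le)
  have h3 : orderOf (y ^ 3) = 2 := by rw [orderOf_pow' y (by norm_num), ho]; rfl
  obtain ⟨T, hT1, hTC, hT, hi⟩ := exists_syl (C := centralizer {y ^ 2})
    (IsPGroup.of_card (p := 2) (n := 1) (G := zpowers (y ^ 3)) (by rw [Nat.card_zpowers, h3, pow_one]))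
    (zpowers_le.2 (mem_centralizer_singleton_iff.2 (by group)))
  have ht : y ^ 3 ∈ T := hT1 (mem_zpowers _)
  obtain ⟨z, hz, hzo, hzc⟩ := exists_cent hT fun h0 => by
    rw [h0, mem_bot] at ht
    simp [ht] at h3
  have hzy : z = y ^ 3 := by
    obtain ⟨k, hk, rfl⟩ := Finset.mem_image.1 (mem_zpowers_iff_mem_range_orderOf.1
      (hC.ge (comm_of (hTC hz) (hzc _ ht).symm)))
    rw [ho, Finset.mem_range] at hk
    rw [orderOf_pow, ho] at hzo
    interval_cases k <;> first | rfl | exact absurd hzo (by decide)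
  have hle : T ≤ centralizer {y} := fun g hg => comm_of (hTC hg) (hzy ▸ hzc g hg)
  rw [cc, ← CL.Grp.card_mul_relIndex hTC] at h4
  have := ((Nat.Coprime.pow_left 2 ((Nat.Prime.coprime_iff_not_dvd Nat.prime_two).2 hi)).dvd_of_dvd_mul_right
    h4).trans (card_dvd_of_le hle)
  rw [show Nat.card (centralizer ({y} : Set G)) = 6 from hc] at this
  exact absurd this (by decide)

theorem six_conj {y y' : G} (h6 : ty y = 6) (hc : cc y = 6) (ho' : orderOf y' = 6) (h : y ^ 2 = y' ^ 2) :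
    IsConj y' y := by
  obtain ⟨ho, h4⟩ := six_aux h6 hc
  have h3 : ∀ {u : G}, orderOf u = 6 → orderOf (u ^ 3) = 2 := fun hu => by
    rw [orderOf_pow' _ (by norm_num), hu]; rfl
  have hm : ∀ u : G, u ^ 3 ∈ centralizer ({u ^ 2} : Set G) := fun u =>
    mem_centralizer_singleton_iff.2 (by group)
  obtain ⟨a, ha⟩ := exists_isConj_pw (G := centralizer ({y ^ 2} : Set G)) (p := 2) (x := ⟨y ^ 3, hm y⟩)
    ((orderOf_coe _).symm.trans (h3 ho)) h4 (y := ⟨y' ^ 3, h ▸ hm y'⟩)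
    ((ty_eq_prime_iff Nat.prime_two).2 ⟨0, (orderOf_coe _).symm.trans (h3 ho')⟩)
  rw [Subsingleton.elim a 1, pw_one] at ha
  obtain ⟨d, hd⟩ := isConj_iff.1 ha
  have hd1 : (d : G) * y' ^ 3 * (d : G)⁻¹ = y ^ 3 := congrArg Subtype.val hd
  have hd2 : (d : G) * y ^ 2 = y ^ 2 * d := mem_centralizer_singleton_iff.1 d.2
  refine isConj_iff.2 ⟨d, ?_⟩
  calc (d : G) * y' * (d : G)⁻¹ = (d * y' ^ 3 * (d : G)⁻¹) * (d * (y' ^ 2)⁻¹ * (d : G)⁻¹) := by group
    _ = y ^ 3 * ((d * y ^ 2) * (d : G)⁻¹)⁻¹ := by rw [hd1, ← h]; group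
    _ = y := by rw [hd2]; group

theorem six : (cls G).count (6, 6) ≤ cnt (cls G) 3 := by
  classical
  rw [count_cls]
  have hm : ∀ K ∈ (nt G).filter fun K => (ty K.out, cc K.out) = (6, 6), ty K.out = 6 ∧ cc K.out = 6 :=
    fun K hK => Prod.ext_iff.1 (Finset.mem_filter.1 hK).2
  refine le_cnt _ (fun K => K.out ^ 2) (by norm_num) (fun K hK => ?_) fun K hK L hL h => ?_
  · refine (ty_eq_prime_iff Nat.prime_three).2 ⟨0, ?_⟩
    rw [orderOf_pow' _ (by norm_num), (six_aux (hm K hK).1 (hm K hK).2).1]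
    rfl
  · obtain ⟨c, hc⟩ := isConj_iff.1 h
    have h1 : IsConj K.out (c * K.out * c⁻¹) := isConj_iff.2 ⟨c, rfl⟩
    have h2 := six_conj (hm L hL).1 (hm L hL).2 ((orderOf_conj h1).symm.trans
      (six_aux (hm K hK).1 (hm K hK).2).1) (by rw [conj_pow, hc])
    rw [← K.out_eq, ← L.out_eq]
    exact ConjClasses.mk_eq_mk_iff_isConj.2 (h1.trans h2)

end DB

/-- The local conditions hold in a non-abelian simple group with at most eleven classes. -/
theorem dataB [IsSimpleGroup G] (hG : ¬ IsMulCommutative G) (hk : Nat.card (ConjClasses G) ≤ 11) :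
    DataB (Nat.card G) (cls G) where
  parent a ha r hr h1 h2 := by
    obtain ⟨x, -, rfl⟩ := mem_cls.1 ha
    obtain ⟨y, hy, h⟩ := DB.parent hr h1 h2
    exact ⟨_, mem_cls.2 ⟨y, hy, rfl⟩, h⟩
  child a ha r hr h1 h2 := by
    obtain ⟨x, hx, rfl⟩ := mem_cls.1 ha
    obtain ⟨y, hy, h⟩ := DB.child hx hr h1 h2
    exact ⟨_, mem_cls.2 ⟨y, hy, rfl⟩, h⟩
  aut p hp h := DB.aut hp h
  syl a ha hp _ h := by
    obtain ⟨x, -, rfl⟩ := mem_cls.1 ha
    obtain ⟨h1, h2⟩ := DB.syl_aux hp rfl h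
    refine ⟨h2, fun b hb h3 => ?_, DB.syl_e hG hk hp h1 h2⟩
    obtain ⟨y, -, rfl⟩ := mem_cls.1 hb
    exact DB.cc_eq hp h1 h2 h3
  six := DB.six

end CL.KC
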