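/-
Simple groups with at most eleven conjugacy classes: soundness of the search for the centralizer orders.
-/
import Cfsg.Agent.Known.KC.Bas

set_option autoImplicit false

namespace CL.KC

/-- The order in which the classes are placed. -/
def le2 (a b : ℕ × ℕ) : Prop := a.2 < b.2 ∨ (a.2 = b.2 ∧ b.1 ≤ a.1)

/-- The static information is correct. -/
structure Good (M : Multiset (ℕ × ℕ)) (x : Info) : Prop where
  pf1 : ∀ r ∈ x.pf, r.Prime ∧ r ∣ x.t
  pf2 : ∀ r, r.Prime → r ∣ x.t → r ∈ x.pf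
  kd1 : ∀ r ∈ x.kd, r.Prime ∧ ¬ r ∣ x.t
  kd2 : ∀ r, r.Prime → ¬ r ∣ x.t → (∃ b ∈ M, b.1 = x.t * r) → r ∈ x.kd
  lb : ∀ c, (x.t, c) ∈ M → x.lb ≤ c ∧ x.md ∣ c
  md : x.md ∣ x.t * x.t
  sq : x.sq = 1 ∨ (x.t.Prime ∧ x.t ≠ 2 ∧ x.sq = x.t ^ 2)

/-- The invariant of the second search: `P` is placed, `Q` remains. -/
structure Inv (g : ℕ) (M : Multiset (ℕ × ℕ)) (T : List Info) (P S : List (ℕ × ℕ)) (n d lc lt : ℕ)
    (Q : List (ℕ × ℕ)) : Prop where
  hM : M = (P : Multiset (ℕ × ℕ)) + Q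
  srt : Q.Pairwise le2
  PQ : ∀ a ∈ P, ∀ b ∈ Q, le2 a b
  lQ : ∀ b ∈ Q, le2 (lt, lc) b
  lc0 : 0 < lc
  TQ : (T.map Info.t).Perm (Q.map Prod.fst)
  good : ∀ x ∈ T, Good M x
  d0 : 0 < d
  nd : (n : ℚ) / d = 1 / g + (Q.map fun b => 1 / (b.2 : ℚ)).sum
  hS : ∀ s ∈ S, s ∈ M ∧ s.1.Prime ∧ s.1 ≠ 2 ∧ ¬ s.1 ^ 2 ∣ s.2

variable {g : ℕ} {M : Multiset (ℕ × ℕ)}

theorem DataA.pos (hA : DataA g M) : 0 < g := by
  rw [← hA.sum]
  omega

section Step

variable {T : List Info} {P S : List (ℕ × ℕ)} {n d lc lt t c : ℕ} {Q : List (ℕ × ℕ)}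

theorem Inv.mem (h : Inv g M T P S n d lc lt Q) {a : ℕ × ℕ} : a ∈ M ↔ a ∈ P ∨ a ∈ Q := by
  rw [h.hM, Multiset.mem_add, Multiset.mem_coe, Multiset.mem_coe]

theorem Inv.head (h : Inv g M T P S n d lc lt ((t, c) :: Q)) : (t, c) ∈ M := h.mem.2 (Or.inr List.mem_cons_self)

/-- Children of the next class are placed. -/
theorem Inv.child (hA : DataA g M) (hB : DataB g M) (h : Inv g M T P S n d lc lt ((t, c) :: Q)) {r : ℕ}
    (hr : r.Prime) (h1 : ¬ r ∣ t) (h2 : r ∣ c) : ∃ b ∈ P, b.1 = t * r ∧ b.2 ∣ c ∧ ¬ r ∣ c / b.2 := by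
  obtain ⟨b, hb, e1, e2, e3⟩ := hB.child _ h.head r hr h1 h2
  refine ⟨b, (h.mem.1 hb).resolve_right fun e => ?_, e1, e2, e3⟩
  have t1 := (hA.typ _ h.head).2.1
  have c5 := (hA.five _ h.head).1
  have t2 : t < t * r := (Nat.lt_mul_iff_one_lt_right (by omega)).2 hr.one_lt
  have c1 := Nat.le_of_dvd (by omega) e2
  rcases List.mem_cons.1 e with rfl | e
  · exact t2.ne e1
  · have := List.rel_of_pairwise_cons h.srt e
    simp only [le2] at this e1 c1
    omega

/-- Parents of the next class remain. -/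
theorem Inv.parent (hA : DataA g M) (hB : DataB g M) (h : Inv g M T P S n d lc lt ((t, c) :: Q)) {r : ℕ}
    (hr : r.Prime) (h1 : r ∣ t) (h2 : t ≠ r) : t / r ∈ Q.map Prod.fst := by
  obtain ⟨b, hb, e1, e2⟩ := hB.parent _ h.head r hr h1 h2
  have t1 := (hA.typ _ hb).2.1
  have c5 := (hA.five _ hb).1
  have t2 : b.1 < b.1 * r := (Nat.lt_mul_iff_one_lt_right (by omega)).2 hr.one_lt
  have c1 := Nat.le_of_dvd (by omega) e2
  simp only at e1 c1
  refine List.mem_map.2 ⟨b, ?_, (Nat.div_eq_of_eq_mul_left hr.pos e1.symm).symm⟩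
  rcases h.mem.1 hb with e | e
  · have := h.PQ b e _ List.mem_cons_self
    simp only [le2] at this
    omega
  · refine (List.mem_cons.1 e).resolve_left ?_
    rintro rfl
    exact t2.ne' e1

theorem Inv.npos (hA : DataA g M) (h : Inv g M T P S n d lc lt Q) : 0 < n := by
  have h1 : (0 : ℚ) < 1 / g := by
    have := hA.pos
    positivity
  have h2 : 0 ≤ (Q.map fun b => 1 / (b.2 : ℚ)).sum := List.sum_nonneg fun x hx => by
    obtain ⟨b, _, rfl⟩ := List.mem_map.1 hx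
    positivity
  have h3 := h.nd
  rcases Nat.eq_zero_or_pos n with rfl | e
  · rw [Nat.cast_zero, zero_div] at h3
    linarith
  · exact e

theorem Inv.lo (hA : DataA g M) (h : Inv g M T P S n d lc lt ((t, c) :: Q)) : d < n * c := by
  have h1 : (0 : ℚ) < 1 / g := by
    have := hA.pos
    positivity
  have h2 : 0 ≤ (Q.map fun b => 1 / (b.2 : ℚ)).sum := List.sum_nonneg fun x hx => by
    obtain ⟨b, _, rfl⟩ := List.mem_map.1 hx
    positivity
  have h3 := h.nd
  have c5 : (0 : ℚ) < c := by exact_mod_cast lt_of_lt_of_le (by norm_num) (hA.five _ h.head).1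
  have d0 : (0 : ℚ) < d := by exact_mod_cast h.d0
  rw [List.map_cons, List.sum_cons] at h3
  have h4 : (1 : ℚ) / c < n / d := by linarith
  rw [div_lt_div_iff₀ c5 d0, one_mul] at h4
  exact_mod_cast h4

theorem Inv.hi (hA : DataA g M) (h : Inv g M T P S n d lc lt ((t, c) :: Q)) :
    c ≤ (5 * Q.length + 6) * d / (5 * n) := by
  have c5 : (0 : ℚ) < c := by exact_mod_cast lt_of_lt_of_le (by norm_num) (hA.five _ h.head).1
  have d0 : (0 : ℚ) < d := by exact_mod_cast h.d0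
  have h1 : (1 : ℚ) / g ≤ 1 / (5 * c) :=
    one_div_le_one_div_of_le (by positivity) (by exact_mod_cast (hA.five _ h.head).2)
  have h2 : (Q.map fun b => 1 / (b.2 : ℚ)).sum ≤ (Q.map fun b => 1 / (b.2 : ℚ)).length • ((1 : ℚ) / c) :=
    List.sum_le_card_nsmul _ _ fun x hx => by
      obtain ⟨b, hb, rfl⟩ := List.mem_map.1 hx
      have := List.rel_of_pairwise_cons h.srt hb
      simp only [le2] at this
      exact one_div_le_one_div_of_le c5 (by exact_mod_cast (by omega : c ≤ b.2))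
  have h3 := h.nd
  rw [List.map_cons, List.sum_cons] at h3
  rw [List.length_map, nsmul_eq_mul] at h2
  have h4 : (n : ℚ) / d ≤ (5 * Q.length + 6) / (5 * c) := by
    have : (5 * (Q.length : ℚ) + 6) / (5 * c) = 1 / (5 * c) + (1 / c + Q.length * (1 / c)) := by
      field_simp
      ring
    linarith
  rw [div_le_div_iff₀ d0 (by positivity)] at h4
  rw [Nat.le_div_iff_mul_le (by have := h.npos hA; omega)]
  have h5 : n * (5 * c) ≤ (5 * Q.length + 6) * d := by exact_mod_cast h4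
  linarith

theorem div_le_succ {D m c : ℕ} (hm : 0 < m) (h : m ≤ c) : (D : ℚ) * (1 / c) ≤ ((D / m + 1 : ℕ) : ℚ) := by
  have m0 : (0 : ℚ) < m := by exact_mod_cast hm
  have h1 : (D : ℚ) * (1 / c) ≤ D * (1 / m) :=
    mul_le_mul_of_nonneg_left (one_div_le_one_div_of_le m0 (by exact_mod_cast h)) (by positivity)
  refine h1.trans ?_
  rw [mul_one_div, div_le_iff₀ m0]
  exact_mod_cast (Nat.lt_div_mul_add hm).le.trans (by rw [add_mul, one_mul])

theorem Inv.ub (hA : DataA g M) (h : Inv g M T P S n d lc lt ((t, c) :: Q)) (K : ℕ) :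
    n * K ≤ (T.map fun x => d * K / max lc x.lb + 1).sum + (d * K / (5 * lc) + 1) := by
  have d0 : (d : ℚ) ≠ 0 := by exact_mod_cast h.d0.ne'
  have hl : ∀ b ∈ (t, c) :: Q, lc ≤ b.2 := fun b hb => by
    have := h.lQ b hb
    simp only [le2] at this
    omega
  have h1 := div_le_succ (D := d * K) (m := 5 * lc) (c := g) (by have := h.lc0; omega)
    ((Nat.mul_le_mul_left 5 (hl _ List.mem_cons_self)).trans (hA.five _ h.head).2)
  have h2 : Multiset.Rel (fun (b : ℕ × ℕ) (x : Info) => b.1 = x.t) ((t, c) :: Q : List (ℕ × ℕ)) T := by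
    rw [← Multiset.rel_map, Multiset.rel_eq, Multiset.map_coe, Multiset.map_coe, Multiset.coe_eq_coe]
    exact h.TQ.symm
  have h3 : ((((t, c) :: Q : List (ℕ × ℕ)) : Multiset (ℕ × ℕ)).map fun b => ((d * K : ℕ) : ℚ) * (1 / b.2)).sum ≤
      ((T : Multiset Info).map fun x => ((d * K / max lc x.lb + 1 : ℕ) : ℚ)).sum :=
    Multiset.sum_le_sum_of_rel_le (Multiset.rel_map.2 (h2.mono fun b hb x hx e =>
      div_le_succ (lt_max_of_lt_left h.lc0)
        (max_le (hl b hb) ((h.good x hx).lb b.2 (e ▸ h.mem.2 (Or.inr hb))).1)))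
  rw [Multiset.map_coe, Multiset.map_coe, Multiset.sum_coe, Multiset.sum_coe, List.sum_map_mul_left] at h3
  have h4 : (n : ℚ) * K = ((d * K : ℕ) : ℚ) * (n / d) := by
    push_cast
    field_simp
  have h5 : ((n * K : ℕ) : ℚ) ≤
      (((T.map fun x => d * K / max lc x.lb + 1).sum + (d * K / (5 * lc) + 1) : ℕ) : ℚ) := by
    rw [Nat.cast_add, Nat.cast_list_sum, List.map_map, Nat.cast_mul, h4, h.nd, mul_add, add_comm]
    exact add_le_add h3 h1
  exact_mod_cast h5

theorem Inv.next (hA : DataA g M) (h : Inv g M T P S n d lc lt ((t, c) :: Q)) {T' : List Info}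
    (h1 : ∀ x ∈ T', x ∈ T) (h2 : T'.map Info.t = (T.map Info.t).erase t) {S' : List (ℕ × ℕ)}
    (hS : ∀ s ∈ S', s ∈ M ∧ s.1.Prime ∧ s.1 ≠ 2 ∧ ¬ s.1 ^ 2 ∣ s.2) :
    Inv g M T' ((t, c) :: P) S' ((n * c - d) / Nat.gcd (n * c - d) (d * c)) (d * c / Nat.gcd (n * c - d) (d * c))
      c t Q := by
  have c0 : 0 < c := lt_of_lt_of_le (by norm_num) (hA.five _ h.head).1
  have dc := Nat.mul_pos h.d0 c0
  have e0 := Nat.gcd_pos_of_pos_right (n * c - d) dc
  refine ⟨?_, h.srt.of_cons, fun a ha b hb => ?_, fun b hb => List.rel_of_pairwise_cons h.srt hb, c0, ?_,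
    fun x hx => h.good x (h1 x hx), Nat.div_pos (Nat.gcd_le_right _ dc) e0, ?_, hS⟩
  · rw [h.hM, ← Multiset.cons_coe, ← Multiset.cons_coe, Multiset.add_cons, Multiset.cons_add]
  · rcases List.mem_cons.1 ha with rfl | ha
    · exact List.rel_of_pairwise_cons h.srt hb
    · exact h.PQ a ha b (List.mem_cons_of_mem _ hb)
  · have := h.TQ.erase t
    rwa [← h2, List.map_cons, List.erase_cons_head] at this
  · have e1 : ((Nat.gcd (n * c - d) (d * c) : ℕ) : ℚ) ≠ 0 := by exact_mod_cast e0.ne'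
    have h3 := h.nd
    have d0 : (d : ℚ) ≠ 0 := by exact_mod_cast h.d0.ne'
    have c1 : (c : ℚ) ≠ 0 := by exact_mod_cast c0.ne'
    rw [List.map_cons, List.sum_cons] at h3
    rw [Nat.cast_div (Nat.gcd_dvd_left _ _) e1, Nat.cast_div (Nat.gcd_dvd_right _ _) e1,
      div_div_div_cancel_right₀ e1, Nat.cast_sub (h.lo hA).le, Nat.cast_mul, Nat.cast_mul]
    have : ((n : ℚ) * c - d) / (d * c) = n / d - 1 / c := by field_simp
    linarith

theorem tryC_spec (hA : DataA g M) (hB : DataB g M) {ps : List ℕ} (hps : ∀ r ∈ ps, r.Prime) {ih : Nd} {x : Info}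
    (hx : Good M x) (h : Inv g M T P S n d lc lt ((x.t, c) :: Q)) {T' : List Info}
    (h1 : ∀ x ∈ T', x ∈ T) (h2 : T'.map Info.t = (T.map Info.t).erase x.t) {more : Bool}
    (hm : more = true ∨ x.t ∉ Q.map Prod.fst) {lo : ℕ} (hlo : lo ≤ c)
    (ht : tryC ps (cnt M 3) ih x T' more P S n d lo c = true) :
    ∃ S' n' d', Inv g M T' ((x.t, c) :: P) S' n' d' c x.t Q ∧ ih T' ((x.t, c) :: P) S' n' d' c x.t = true := by
  have cg := hA.dvd _ h.head
  have k1 : kidOK x P c = true := by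
    simp only [kidOK, all_iff, imp_iff, any_iff, band_iff, bnot_iff, dv_iff, Nat.beq_eq]
    exact fun r hr hc => h.child hA hB (hx.kd1 r hr).1 (hx.kd1 r hr).2 hc
  have k2 : sylOK x.t S c = true := by
    simp only [sylOK, all_iff, imp_iff, band_iff, bnot_iff, dv_iff, Nat.beq_eq]
    intro s hs
    obtain ⟨s1, s2, s3, s4⟩ := h.hS s hs
    obtain ⟨s5, s6, _⟩ := hB.syl s s1 s2 s3 s4
    exact ⟨fun e => s5 (sq s.1 ▸ e.trans cg), fun e => (s6 _ h.head e.symm).symm⟩
  have k3 : sixOK (cnt M 3) x.t P c = true := by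
    simp only [sixOK, imp_iff, Nat.beq_eq, Nat.blt_eq]
    intro e1 e2
    refine lt_of_lt_of_le ?_ hB.six
    rw [h.hM, e1, e2, Multiset.count_add, ← Multiset.cons_coe, Multiset.count_cons_self, Multiset.count,
      Multiset.coe_countP, List.countP_eq_length_filter, sm_sel, List.map_const', List.sum_replicate, smul_eq_mul,
      mul_one, List.filter_congr (q := fun b => decide ((6, 6) = b)) fun b _ => by
        rw [Bool.eq_iff_iff, band_iff, Nat.beq_eq, Nat.beq_eq, decide_eq_true_eq, eq_comm (b := b), Prod.ext_iff]]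
    omega
  have k4 : bor more (lastOK ps x.t P c) = true := by
    refine bor_iff.2 (hm.imp_right fun e => ?_)
    simp only [lastOK, all_iff, imp_iff, any_iff, band_iff, bor_iff, dv_iff, mem_iff, Nat.beq_eq]
    intro a ha e1 e2
    have hr := hps _ e2
    have t1 : 1 < x.t := (hA.typ _ h.head).2.1
    have e3 : x.t * (a.1 / x.t) = a.1 := Nat.mul_div_cancel' e1
    obtain ⟨b, hb, e4, e5⟩ := hB.parent a (h.mem.2 (Or.inl ha)) _ hr (Nat.div_dvd_of_dvd e1)
      (Nat.div_lt_self (by have := (hA.typ a (h.mem.2 (Or.inl ha))).2.1; omega) t1).ne'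
    have e6 : b.1 = x.t := Nat.eq_of_mul_eq_mul_right hr.pos (e4.trans e3.symm)
    rcases h.mem.1 hb with e7 | e7
    · exact Or.inr ⟨b, e7, e6, e5⟩
    · rcases List.mem_cons.1 e7 with rfl | e7
      · exact Or.inl e5
      · exact absurd (List.mem_map.2 ⟨b, e7, e6⟩) e
  simp only [tryC, imp_iff, frc_eq, Nat.ble_eq] at ht
  have k5 := ht hlo k1 k2 k3 k4
  change sel (dv x.sq c) _ _ = true at k5
  rw [sel_eq] at k5
  split_ifs at k5 with e
  · exact ⟨_, _, _, h.next hA h1 h2 h.hS, k5⟩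
  · rw [dv_iff] at e
    obtain ⟨s1, s2, s3⟩ := hx.sq.resolve_left fun e1 => e (e1 ▸ one_dvd c)
    rw [s3] at e
    refine ⟨_, _, _, h.next hA h1 h2 (List.forall_mem_cons.2 ⟨⟨h.head, s1, s2, e⟩, h.hS⟩), imp_iff.1 k5 ?_⟩
    simp only [all_iff, bnot_iff, dv_iff, s3]
    exact fun b hb e1 => (hB.syl _ h.head s1 s2 e).1 (e1.trans (hA.dvd b (h.mem.2 (Or.inl hb))))

theorem gen_spec (hA : DataA g M) (hB : DataB g M) {x : Info} (hx : Good M x)
    (h : Inv g M T P S n d lc lt ((x.t, c) :: Q)) {F : ℕ → Bool} {hi : ℕ} (hc : c ≤ hi)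
    (hg : gen1 (gen2 F hi x.pf) hi x.t P x.kd x.md = true) : F c = true := by
  obtain ⟨m, hm⟩ := (hx.lb c h.head).2
  have c0 : c ≠ 0 := by have := (hA.five _ h.head).1; omega
  have m0 : m ≠ 0 := right_ne_zero_of_mul (hm ▸ c0)
  have mc : m ∣ c := Dvd.intro_left _ hm.symm
  obtain ⟨b', m', k1, k2, k3, k4⟩ := gen1_spec (R := fun q => q ∈ x.pf) (fun r hr => (hx.kd1 r hr).1) _ m hg m0
    (fun q hq hd => by
      by_cases e : q ∣ x.t
      · exact Or.inr (hx.pf2 q hq e)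
      · obtain ⟨b, hb, e1, _⟩ := hB.child _ h.head q hq e (hd.trans mc)
        exact Or.inl (hx.kd2 q hq e ⟨b, hb, e1⟩))
    (fun q hq hd => by
      obtain ⟨q1, q2⟩ := hx.kd1 q hq
      obtain ⟨b, hb, e1, e2, e3⟩ := h.child hA hB q1 q2 (hd.trans mc)
      have b0 : b.2 ≠ 0 := ne_zero_of_dvd_ne_zero c0 e2
      refine ⟨b, hb, e1, (part_eq q1 b0).trans (congrArg _ ?_)⟩
      have e4 : ¬ q ∣ x.md := fun e => q2 ((q1.dvd_mul.1 (e.trans hx.md)).elim id id)
      have e5 : c.factorization q = m.factorization q := by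
        rw [hm, Nat.factorization_mul (left_ne_zero_of_mul (hm ▸ c0)) m0, Finsupp.add_apply,
          Nat.factorization_eq_zero_of_not_dvd e4, zero_add]
      have e6 := Nat.mul_div_cancel' e2
      rw [← e5, ← e6, Nat.factorization_mul b0 (right_ne_zero_of_mul (e6.symm ▸ c0)), Finsupp.add_apply,
        Nat.factorization_eq_zero_of_not_dvd e3, add_zero])
    (hm ▸ hc)
  rw [hm, ← k2]
  exact gen2_spec (fun r hr => (hx.pf1 r hr).1) _ _ k1 k3 k4 (k2 ▸ hm ▸ hc)

end Step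

theorem node2_succ (ps : List ℕ) (t3 : ℕ) (leaf : ℕ → List (ℕ × ℕ) → Bool) (f : ℕ) (T : List Info)
    (P S : List (ℕ × ℕ)) (n d lc lt : ℕ) : node2 ps t3 leaf (f + 1) T P S n d lc lt =
      frc (d * 65536) fun D =>
      imp (Nat.ble (n * 65536) (sm (fun x => D / mx lc x.lb + 1) T + (D / (5 * lc) + 1)))
      (frc ((5 * f + 6) * d / (5 * n)) fun hi =>
        frc (d / n).succ fun l0 =>
        allT (fun x => frc (mx (mx l0 x.lb) (sel (Nat.blt lt x.t) lc.succ lc)) fun lo =>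
          imp (Nat.ble lo hi) (eraseK x.t T fun T' => imp (parOK x T')
            (sel (memT x.t T')
              (gen1 (gen2 (tryC ps t3 (node2 ps t3 leaf f) x T' true P S n d lo) hi x.pf) hi x.t P x.kd x.md)
              (gen1 (gen2 (tryC ps t3 (node2 ps t3 leaf f) x T' false P S n d lo) hi x.pf) hi x.t P x.kd x.md))))
          T 0) := rfl

theorem node2_spec (hA : DataA g M) (hB : DataB g M) {ps : List ℕ} (hps : ∀ r ∈ ps, r.Prime)
    {leaf : ℕ → List (ℕ × ℕ) → Bool} (Q : List (ℕ × ℕ)) :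
    ∀ T P S n d lc lt, Inv g M T P S n d lc lt Q → node2 ps (cnt M 3) leaf Q.length T P S n d lc lt = true →
      ∃ P : List (ℕ × ℕ), (P : Multiset (ℕ × ℕ)) = M ∧ leaf g P = true := by
  induction Q with
  | nil =>
    intro T P S n d lc lt h hn
    change imp (dv n d) (frc (d / n) fun g => leaf g P) = true at hn
    have h1 := h.nd
    have g0 : (g : ℚ) ≠ 0 := by exact_mod_cast hA.pos.ne'
    have d0 : (d : ℚ) ≠ 0 := by exact_mod_cast h.d0.ne'
    rw [List.map_nil, List.sum_nil, add_zero, div_eq_div_iff d0 g0, one_mul] at h1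
    have h2 : d = n * g := by exact_mod_cast h1.symm
    rw [imp_iff, frc_eq, dv_iff, h2, Nat.mul_div_cancel_left _ (h.npos hA)] at hn
    exact ⟨P, by simpa using h.hM.symm, hn (dvd_mul_right _ _)⟩
  | cons a Q ih =>
    obtain ⟨t, c⟩ := a
    intro T P S n d lc lt h hn
    rw [List.length_cons, node2_succ] at hn
    simp only [frc_eq, imp_iff, Nat.ble_eq, sm_eq, mx_eq] at hn
    obtain ⟨x, hx, rfl, h1⟩ := allT_spec (t := t) (hn (h.ub hA 65536)) (h.TQ.mem_iff.2 List.mem_cons_self)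
      (by have := (hA.typ _ h.head).2.1; omega)
    have hg := h.good x hx
    have hlo : max (max (d / n).succ x.lb) (sel (Nat.blt lt x.t) lc.succ lc) ≤ c := by
      refine max_le (max_le ((Nat.div_lt_iff_lt_mul (h.npos hA)).2 (mul_comm n c ▸ h.lo hA)) (hg.lb c h.head).1) ?_
      have := h.lQ _ List.mem_cons_self
      simp only [le2] at this
      simp only [sel_eq, Nat.blt_eq]
      split_ifs <;> omega
    obtain ⟨T', h2, h3, h4⟩ := eraseK_spec (imp_iff.1 h1 (Nat.ble_eq.to_iff.2 (hlo.trans (h.hi hA))))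
    have h5 : (T'.map Info.t).Perm (Q.map Prod.fst) := (h.next hA h3 h4 h.hS).TQ
    have h6 := imp_iff.1 h2 (by
      simp only [parOK, all_iff, bor_iff, Nat.beq_eq, memT_iff, h5.mem_iff]
      exact fun r hr => or_iff_not_imp_left.2 (h.parent hA hB (hg.pf1 r hr).1 (hg.pf1 r hr).2))
    rw [sel_eq] at h6
    split_ifs at h6 with e
    · obtain ⟨S', n', d', k1, k2⟩ := tryC_spec hA hB hps hg h h3 h4 (Or.inl rfl) hlo
        (gen_spec hA hB hg h (h.hi hA) h6)
      exact ih _ _ _ _ _ _ _ k1 k2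
    · obtain ⟨S', n', d', k1, k2⟩ := tryC_spec hA hB hps hg h h3 h4
        (Or.inr fun e1 => e (memT_iff.2 (h5.mem_iff.2 e1))) hlo (gen_spec hA hB hg h (h.hi hA) h6)
      exact ih _ _ _ _ _ _ _ k1 k2

end CL.KC
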