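/-
Simple groups with at most eleven conjugacy classes: soundness of the search for the types.
-/
import Cfsg.Agent.Known.KC.S2

set_option autoImplicit false

namespace CL.KC

/-- The class data occur in the list `sv`. -/
def Res (sv : List (ℕ × List (ℕ × ℕ))) (g : ℕ) (M : Multiset (ℕ × ℕ)) : Prop :=
  g = 2520 ∨ ∃ s ∈ sv, s.1 = g ∧ (s.2 : Multiset (ℕ × ℕ)) = M

variable {g : ℕ} {M : Multiset (ℕ × ℕ)} {sv : List (ℕ × List (ℕ × ℕ))}

theorem exists_sorted {α : Type} (r : α → α → Prop) (h1 : ∀ a b, r a b ∨ r b a) (h2 : ∀ a b c, r a b → r b c → r a c)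
    (s : Multiset α) : ∃ l : List α, (l : Multiset α) = s ∧ l.Pairwise r := by
  classical
  have : Std.Total r := ⟨h1⟩
  have : IsTrans α r := ⟨h2⟩
  exact ⟨s.toList.insertionSort r, (Multiset.coe_eq_coe.2 (List.perm_insertionSort r _)).trans s.coe_toList,
    List.pairwise_insertionSort r _⟩

theorem sm_coe (p : ℕ × ℕ → Bool) (q : ℕ × ℕ → Prop) [DecidablePred q] (h : ∀ a, p a = true ↔ q a)
    (f : ℕ × ℕ → ℕ) (P : List (ℕ × ℕ)) :
    Nat.succ (sm (fun a => sel (p a) (f a) 0) P) = 1 + (((P : Multiset (ℕ × ℕ)).filter q).map f).sum := by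
  rw [sm_sel, Multiset.filter_coe, Multiset.map_coe, Multiset.sum_coe, add_comm,
    List.filter_congr (q := fun a => decide (q a)) fun a _ => by rw [Bool.eq_iff_iff, h, decide_eq_true_eq]]

theorem leaf2_spec (hA : DataA g M) {ps : List ℕ} (hps : ∀ r ∈ ps, r.Prime ∧ r ∣ g) {P : List (ℕ × ℕ)}
    (hP : (P : Multiset (ℕ × ℕ)) = M) (h : leaf2 sv ps g P = true) : Res sv g M := by
  subst hP
  simp only [leaf2, imp_iff, all_iff, any_iff, bor_iff, band_iff, dv_iff, mem_iff, Nat.beq_eq, Nat.ble_eq,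
    Nat.blt_eq] at h
  refine (h hA.dvd (fun d _ h1 h2 => ?_) (fun r hr => ?_) ((le_or_gt 7200 g).imp_right hA.small)).imp_right
    fun ⟨s, hs, h1, h2⟩ => ⟨s, hs, h1, by rw [eqP_spec h2]⟩
  · rw [sm_coe (fun a => dv a.1 d) (fun a => a.1 ∣ d) (fun _ => dv_iff)]
    exact hA.frob d h1 h2
  · rw [sm_coe (fun a => Nat.beq a.1 r) (fun a => a.1 = r) (fun _ => Nat.beq_eq.to_iff)]
    exact hA.norm r _ _ (hps r hr).1 (hps r hr).2 (Nat.gcd_dvd_left _ _) (Nat.gcd_dvd_right _ _)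

theorem cnt_pos {r : ℕ} : 0 < cnt M r ↔ r ∈ M.map Prod.fst := Multiset.count_pos

theorem DataA.dvd_g (hA : DataA g M) {y : ℕ} (hy : y ∈ M.map Prod.fst) : y ∣ g := by
  obtain ⟨a, ha, rfl⟩ := Multiset.mem_map.1 hy
  exact (hA.typ a ha).1.trans (hA.dvd a ha)

theorem DataA.pmem (hA : DataA g M) {y r : ℕ} (hy : y ∈ M.map Prod.fst) (hr : r.Prime) (h : r ∣ y) :
    r ∈ M.map Prod.fst := cnt_pos.1 (hA.prime r hr (h.trans (hA.dvd_g hy)))

theorem DataA.typ' (hA : DataA g M) {y : ℕ} (hy : y ∈ M.map Prod.fst) : 1 < y ∧ Squarefree y := by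
  obtain ⟨a, ha, rfl⟩ := Multiset.mem_map.1 hy
  exact (hA.typ a ha).2

theorem infoK_spec (hA : DataA g M) (hB : DataB g M) {L ps : List ℕ} (hL : (L : Multiset ℕ) = M.map Prod.fst)
    (hps : ∀ r, r ∈ ps ↔ r ∈ L ∧ r.Prime) {t : ℕ} (ht : t ∈ L) {k : Info → Bool} (h : infoK L ps t k = true) :
    ∃ x, x.t = t ∧ Good M x ∧ k x = true := by
  have mL : ∀ y, y ∈ L ↔ y ∈ M.map Prod.fst := fun y => by rw [← hL, Multiset.mem_coe]
  simp only [infoK, frcL_eq, frc_eq] at h
  generalize e1 : flt (fun r => dv r t) ps = pf at h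
  generalize e2 : flt (fun r => band (bnot (dv r t)) (mem (Nat.mul t r) L)) ps = kd at h
  have e3 : ∀ r, r ∈ pf ↔ r ∈ ps ∧ r ∣ t := fun r => by rw [← e1, mem_flt, dv_iff]
  have e4 : ∀ r, r ∈ kd ↔ r ∈ ps ∧ ¬ r ∣ t ∧ t * r ∈ L := fun r => by
    rw [← e2, mem_flt, band_iff, bnot_iff, dv_iff, mem_iff]
    rfl
  have key : ∀ lb md sq, (∀ c, (t, c) ∈ M → lb ≤ c ∧ md ∣ c) → md ∣ t * t →
      (sq = 1 ∨ (t.Prime ∧ t ≠ 2 ∧ sq = t ^ 2)) → Good M ⟨t, lb, md, sq, pf, kd⟩ := fun lb md sq h1 h2 h3 =>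
    ⟨fun r hr => ⟨((hps r).1 ((e3 r).1 hr).1).2, ((e3 r).1 hr).2⟩,
      fun r hr hd => (e3 r).2 ⟨(hps r).2 ⟨(mL r).2 (hA.pmem ((mL t).1 ht) hr hd), hr⟩, hd⟩,
      fun r hr => ⟨((hps r).1 ((e4 r).1 hr).1).2, ((e4 r).1 hr).2.1⟩,
      fun r hr hd hb => (e4 r).2 ⟨(hps r).2 ⟨(mL r).2
        (hA.pmem (Multiset.mem_map.2 hb) hr (dvd_mul_left r t)), hr⟩, hd, (mL _).2 (Multiset.mem_map.2 hb)⟩,
      h1, h2, h3⟩
  have c0 : ∀ c, (t, c) ∈ M → 5 ≤ c ∧ t ∣ c := fun c hc => ⟨(hA.five _ hc).1, (hA.typ _ hc).1⟩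
  change sel (Nat.beq t 2) _ (sel (mem t ps) (sel (tOK t (ct t L)) _ _) _) = true at h
  simp only [sel_eq, Nat.beq_eq, mem_iff, bor_iff, any_iff] at h
  split_ifs at h with k1 k2 k3 k4
  · subst k1
    refine ⟨_, rfl, key 8 4 1 (fun c hc => ?_) dvd_rfl (Or.inl rfl), h⟩
    have := hA.two _ hc rfl
    have := c0 c hc
    simp only at *
    omega
  · refine ⟨_, rfl, key _ _ _ (fun c hc => ⟨?_, (c0 c hc).2⟩) (dvd_mul_right t t)
      (Or.inr ⟨((hps t).1 k2).2, k1, (sq t).symm⟩), h⟩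
    have tp := ((hps t).1 k2).2
    obtain ⟨c5, u, rfl⟩ := c0 c hc
    rcases k4 with rfl | ⟨r, hr, _⟩
    · show 2 * 3 ≤ _
      omega
    · obtain ⟨r1, r2, r3⟩ := (e4 r).1 hr
      have rp := ((hps r).1 r1).2
      obtain ⟨a, ha, a1⟩ := Multiset.mem_map.1 ((mL _).1 r3)
      obtain ⟨b, hb, b1, b2⟩ := hB.parent a ha r rp (a1 ▸ dvd_mul_left r t)
        (a1 ▸ ((Nat.lt_mul_iff_one_lt_left rp.pos).2 tp.one_lt).ne')
      show 2 * t ≤ t * u
      rw [mul_comm]
      refine Nat.mul_le_mul_left t ?_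
      rcases u with _ | _ | u
      · omega
      · rw [zero_add, mul_one] at hc
        have := (hB.syl _ hc tp k1 fun e => by
          have := Nat.le_of_dvd tp.pos e
          nlinarith [tp.two_le]).2.1 b hb (Nat.eq_of_mul_eq_mul_right rp.pos (b1.trans a1))
        exact absurd (((dvd_mul_left r t).trans (a1 ▸ (hA.typ a ha).1)).trans (b2.trans this.dvd)) r2
      · omega
  · refine ⟨_, rfl, key _ _ _ (fun c hc => ⟨Nat.le_of_dvd (by have := c0 c hc; omega) (c0 c hc).2, (c0 c hc).2⟩)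
      (dvd_mul_right t t) (Or.inr ⟨((hps t).1 k2).2, k1, (sq t).symm⟩), h⟩
  · have tp := ((hps t).1 k2).2
    have k5 : ∀ c, (t, c) ∈ M → t * t ∣ c := fun c hc => by
      by_contra e
      obtain ⟨_, _, e, e5, e6, e7⟩ := hB.syl _ hc tp k1 (sq t ▸ e)
      have e8 : 0 < cnt M t := cnt_pos.2 ((mL t).1 ht)
      have e9 : ct t L = cnt M t := by rw [ct_eq, cnt, ← hL, Multiset.coe_count]
      have e10 : Nat.sub t 1 = e * cnt M t := Nat.sub_eq_of_eq_add e6
      refine k3 ?_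
      simp only [tOK, band_iff, dv_iff, Nat.blt_eq, Nat.ble_eq, e9, e10]
      exact ⟨dvd_mul_left _ _, by nlinarith, le_of_eq_of_le (congrArg (· + cnt M t) (Nat.mul_div_cancel e e8)) e7⟩
    exact ⟨_, rfl, key _ _ _ (fun c hc => ⟨Nat.le_of_dvd (by have := c0 c hc; omega) (k5 c hc), k5 c hc⟩) dvd_rfl
      (Or.inr ⟨tp, k1, (sq t).symm⟩), h⟩
  · exact ⟨_, rfl, key _ _ _ (fun c hc => ⟨Nat.le_of_dvd (by have := c0 c hc; omega) (c0 c hc).2, (c0 c hc).2⟩)
      (dvd_mul_right t t) (Or.inl rfl), h⟩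

theorem infosK_spec (hA : DataA g M) (hB : DataB g M) {L ps : List ℕ} (hL : (L : Multiset ℕ) = M.map Prod.fst)
    (hps : ∀ r, r ∈ ps ↔ r ∈ L ∧ r.Prime) {l : List ℕ} : (∀ t ∈ l, t ∈ L) → ∀ {k : List Info → Bool},
    infosK L ps l k = true → ∃ T, T.map Info.t = l ∧ (∀ x ∈ T, Good M x) ∧ k T = true := by
  induction l with
  | nil => exact fun _ _ h => ⟨[], rfl, by simp, h⟩
  | cons t s ih =>
    intro hl k h
    obtain ⟨x, h1, h2, h3⟩ := infoK_spec hA hB hL hps (hl t List.mem_cons_self)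
      (k := fun x => infosK L ps s fun m => k (x :: m)) h
    obtain ⟨T, h4, h5, h6⟩ := ih (fun y hy => hl y (List.mem_cons_of_mem _ hy)) h3
    exact ⟨x :: T, by rw [List.map_cons, h1, h4], List.forall_mem_cons.2 ⟨h2, h5⟩, h6⟩

theorem DataA.qsum (hA : DataA g M) : (1 : ℚ) = 1 / g + (M.map fun b => 1 / (b.2 : ℚ)).sum := by
  have g0 : (g : ℚ) ≠ 0 := by exact_mod_cast hA.pos.ne'
  have h : (1 : ℚ) + (M.map fun a => ((g / a.2 : ℕ) : ℚ)).sum = g := by
    have := congrArg (Nat.cast : ℕ → ℚ) hA.sum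
    rwa [Nat.cast_add, Nat.cast_one, Nat.cast_multiset_sum, Multiset.map_map] at this
  rw [Multiset.map_congr rfl (g := fun a => (g : ℚ) * (1 / a.2)) fun a ha => by
    rw [Nat.cast_div (hA.dvd a ha) (by have := (hA.five a ha).1; exact_mod_cast (by omega : a.2 ≠ 0)),
      mul_one_div], Multiset.sum_map_mul_left] at h
  refine mul_left_cancel₀ g0 ?_
  rw [mul_add, mul_one_div_cancel g0, mul_one, h]

theorem root2_spec (hA : DataA g M) (hB : DataB g M) {L ps : List ℕ} (hL : (L : Multiset ℕ) = M.map Prod.fst)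
    (hps : ∀ r, r ∈ ps ↔ r ∈ L ∧ r.Prime) (h : root2 sv L ps L.length = true) : Res sv g M := by
  simp only [root2, frc_eq] at h
  obtain ⟨T, h1, h2, h3⟩ := infosK_spec hA hB hL hps (fun _ h => h) h
  obtain ⟨Q, q1, q2⟩ := exists_sorted le2 (fun a b => by simp only [le2]; omega)
    (fun a b c => by simp only [le2]; omega) M
  have e1 : L.length = Q.length := by
    rw [← Multiset.coe_card, hL, Multiset.card_map, ← q1, Multiset.coe_card]
  have e2 : ct 3 L = cnt M 3 := by rw [ct_eq, cnt, ← hL, Multiset.coe_count]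
  rw [e1, e2] at h3
  have i : Inv g M T [] [] 1 1 5 5 Q := by
    refine ⟨by simp [q1], q2, by simp, fun b hb => ?_, by norm_num, ?_, h2, one_pos, ?_, by simp⟩
    · have hb' : b ∈ M := q1 ▸ Multiset.mem_coe.2 hb
      have := (hA.five b hb').1
      have := Nat.le_of_dvd (by omega) (hA.typ b hb').1
      simp only [le2]
      omega
    · rw [← Multiset.coe_eq_coe, h1, hL, ← q1, Multiset.map_coe]
    · rw [Nat.cast_one, div_one, ← Multiset.sum_coe, ← Multiset.map_coe, q1]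
      exact hA.qsum
  obtain ⟨P, p1, p2⟩ := node2_spec hA hB (fun r hr => ((hps r).1 hr).2) Q T [] [] 1 1 5 5 i h3
  exact leaf2_spec hA (fun r hr => ⟨((hps r).1 hr).2, hA.dvd_g (hL ▸ Multiset.mem_coe.2 ((hps r).1 hr).1)⟩) p1 p2

theorem app_eq (s t : List ℕ) : app s t = s ++ t := by
  induction s with
  | nil => rfl
  | cons z s ih => exact congrArg (z :: ·) ih

theorem mem_tab (F : ℕ → ℕ → ℕ) {s t : List ℕ} {z w : ℕ} (hz : z ∈ s) (hw : w ∈ t) :
    F z w ∈ List.rec (motive := fun _ => List ℕ) []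
      (fun z _ ih => List.rec (motive := fun _ => List ℕ) ih (fun w _ ih' => F z w :: ih') t) s := by
  have key : ∀ (y : ℕ) (u t : List ℕ),
      List.rec (motive := fun _ => List ℕ) u (fun w _ ih' => F y w :: ih') t = t.map (F y) ++ u := fun y u t => by
    induction t with
    | nil => rfl
    | cons w t ih => exact congrArg (F y w :: ·) ih
  induction s with
  | nil => simp at hz
  | cons y s ih =>
    refine (key y _ t).symm ▸ List.mem_append.2 ?_
    rcases List.mem_cons.1 hz with rfl | hz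
    · exact Or.inl (List.mem_map_of_mem hw)
    · exact Or.inr (ih hz)

theorem mem_mulL {s t : List ℕ} {z w : ℕ} (hz : z ∈ s) (hw : w ∈ t) : z * w ∈ mulL s t := mem_tab Nat.mul hz hw

theorem mem_mulS {s t : List ℕ} {z w : ℕ} (hz : z ∈ s) (hw : w ∈ t) : w * z + 1 ∈ mulS s t :=
  mem_tab (fun z w => w * z + 1) hz hw

theorem mem_pws {r j k : ℕ} (h0 : j ≠ 0) (h : j ≤ k) : r ^ j ∈ pws r k := by
  induction k with
  | zero => omega
  | succ k ih =>
    refine List.mem_cons.2 (or_iff_not_imp_left.2 fun e => ih ?_)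
    rcases h.eq_or_lt with rfl | h
    · exact absurd rfl e
    · omega

theorem nodup_dedup (l : List ℕ) : (dedup l).Nodup := by
  induction l with
  | nil => exact List.nodup_nil
  | cons x t ih =>
    show (sel (mem x t) (dedup t) (x :: dedup t)).Nodup
    rw [sel_eq]
    split_ifs with h
    · exact ih
    · exact List.nodup_cons.2 ⟨fun e => h (mem_iff.2 (mem_dedup.1 e)), ih⟩

theorem mem_exps {L : List ℕ} {y : ℕ} {ps : List ℕ} (hp : ∀ r ∈ ps, r.Prime) (hn : ps.Nodup) : ∀ e, e ≠ 0 →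
    (∀ q, q.Prime → q ∣ e → q ∈ ps ∧ q ∣ y) → (∀ q ∈ ps, q ∣ y → q ∣ e) →
    (∀ r j, r.Prime → r ^ j ∣ e → j ≤ L.count r) → e ∈ exps L y ps := by
  induction ps with
  | nil =>
    exact fun e _ h _ _ => List.mem_singleton.2
      (Nat.eq_one_iff_not_exists_prime_dvd.2 fun q hq hd => absurd (h q hq hd).1 List.not_mem_nil)
  | cons r l ih =>
    intro e e0 h1 h2 h3
    have hr := hp r List.mem_cons_self
    have ih' := ih (fun q hq => hp q (List.mem_cons_of_mem _ hq)) hn.of_cons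
    show e ∈ sel (dv r y) (mulL (pws r (ct r L)) (exps L y l)) (exps L y l)
    simp only [sel_eq, dv_iff, ct_eq]
    split_ifs with e1
    · obtain ⟨j, u, hu, rfl⟩ := Nat.exists_eq_pow_mul_and_not_dvd e0 r hr.ne_one
      refine mem_mulL (mem_pws ?_ (h3 r j hr (dvd_mul_right _ _))) (ih' u (right_ne_zero_of_mul e0)
        (fun q hq hd => (h1 q hq (hd.mul_left _)).imp_left fun e2 => (List.mem_cons.1 e2).resolve_left ?_)
        (fun q hq hd => ?_) fun q i hq hd => h3 q i hq (hd.mul_left _))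
      · rintro rfl
        exact hu (by simpa using h2 r List.mem_cons_self e1)
      · rintro rfl
        exact hu hd
      · have qp := hp q (List.mem_cons_of_mem _ hq)
        refine (qp.dvd_mul.1 (h2 q (List.mem_cons_of_mem _ hq) hd)).resolve_left fun e2 => ?_
        exact (List.nodup_cons.1 hn).1 ((Nat.prime_dvd_prime_iff_eq qp hr).1 (qp.dvd_of_dvd_pow e2) ▸ hq)
    · refine ih' e e0 (fun q hq hd => ⟨(List.mem_cons.1 (h1 q hq hd).1).resolve_left ?_, (h1 q hq hd).2⟩)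
        (fun q hq => h2 q (List.mem_cons_of_mem _ hq)) h3
      rintro rfl
      exact e1 (h1 q hq hd).2

theorem mem_allE {L ps l : List ℕ} {e : ℕ} (h : e = 1 ∨ ∃ y ∈ l, e ∈ exps L y ps) : e ∈ allE L ps l := by
  induction l with
  | nil => exact List.mem_singleton.2 (by simpa using h)
  | cons x t ih =>
    show e ∈ sel (mem x t) (allE L ps t) (app (exps L x ps) (allE L ps t))
    simp only [sel_eq, mem_iff, app_eq]
    split_ifs with e1
    · exact ih (h.imp_right fun ⟨y, hy, e2⟩ => ⟨y, (List.mem_cons.1 hy).elim (fun e3 => e3 ▸ e1) id, e2⟩)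
    · rcases h with h | ⟨y, hy, e2⟩
      · exact List.mem_append_right _ (ih (Or.inl h))
      · rcases List.mem_cons.1 hy with rfl | hy
        · exact List.mem_append_left _ e2
        · exact List.mem_append_right _ (ih (Or.inr ⟨y, hy, e2⟩))

theorem DataA.mass (hA : DataA g M) : 1000000 ≤ 16667 + ((M.map Prod.fst).map w0).sum := by
  have g60 : 60 ≤ g := by
    rcases le_or_gt 7200 g with e | e
    · omega
    · exact (by decide : ∀ x ∈ [60, 168, 360, 504, 660, 1092, 2448, 2520, 3420, 4080, 5616, 6048, 6072], 60 ≤ x)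
        g (hA.small e)
  have h1 := div_le_succ (D := 1000000) (by norm_num) g60
  have h2 : (M.map fun b => ((1000000 : ℕ) : ℚ) * (1 / b.2)).sum ≤ (M.map fun b => ((w0 b.1 : ℕ) : ℚ)).sum :=
    Multiset.sum_map_le_sum_map _ _ fun b hb => by
      have b1 := hA.typ b hb
      have b2 := (hA.five b hb).1
      have b3 := hA.two b hb
      have b4 := Nat.le_of_dvd (by omega) b1.1
      refine div_le_succ ?_ ?_ <;> simp only [sel_eq, Nat.beq_eq] <;> split_ifs with e1 e2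
      · omega
      · omega
      · omega
      · have := b3 e1
        omega
      · have := e2 ▸ b1.1
        omega
      · exact b4
  rw [Multiset.sum_map_mul_left] at h2
  have h3 : ((1000000 : ℕ) : ℚ) ≤ ((16667 + ((M.map Prod.fst).map w0).sum : ℕ) : ℚ) := by
    rw [Nat.cast_add, Nat.cast_multiset_sum, Multiset.map_map, Multiset.map_map, ← mul_one ((1000000 : ℕ) : ℚ),
      hA.qsum, mul_add]
    exact add_le_add h1 h2
  exact_mod_cast h3

/-- Every admissible class list whose types begin with `L` occurs in `sv`. -/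
def Good1 (sv : List (ℕ × List (ℕ × ℕ))) (L : List ℕ) : Prop :=
  ∀ g M, DataA g M → DataB g M → ∀ Q : List ℕ, M.map Prod.fst = (L : Multiset ℕ) + Q → Q.Pairwise (· ≤ ·) →
    (∀ y ∈ L, ∀ q ∈ Q, y ≤ q) → M.card ≤ 7 ∨ Res sv g M

section One

variable {L Q : List ℕ}

theorem mem_LQ (hL : M.map Prod.fst = (L : Multiset ℕ) + Q) {y : ℕ} : y ∈ M.map Prod.fst ↔ y ∈ L ∨ y ∈ Q := by
  rw [hL, Multiset.mem_add, Multiset.mem_coe, Multiset.mem_coe]

theorem cnt_LQ (hL : M.map Prod.fst = (L : Multiset ℕ) + Q) (y : ℕ) : cnt M y = L.count y + Q.count y := by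
  rw [cnt, hL, Multiset.count_add, Multiset.coe_count, Multiset.coe_count]

theorem card_LQ (hL : M.map Prod.fst = (L : Multiset ℕ) + Q) : M.card = L.length + Q.length := by
  rw [← Multiset.card_map Prod.fst, hL, Multiset.card_add, Multiset.coe_card, Multiset.coe_card]

theorem prOf_test (hA : DataA g M) (hL : M.map Prod.fst = (L : Multiset ℕ) + Q) {r : ℕ} (hr : r.Prime) :
    all (fun z => bor (Nat.beq z r) (bnot (dv z r))) L = true := by
  simp only [all_iff, bor_iff, bnot_iff, dv_iff, Nat.beq_eq, Nat.dvd_prime hr]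
  intro z hz
  have := (hA.typ' ((mem_LQ hL).2 (Or.inl hz))).1
  omega

theorem mem_prOf (hA : DataA g M) (hL : M.map Prod.fst = (L : Multiset ℕ) + Q) (hQ : ∀ y ∈ L, ∀ q ∈ Q, y ≤ q)
    (y : ℕ) : y ∈ prOf L ↔ y ∈ L ∧ y.Prime := by
  rw [prOf, mem_flt]
  refine and_congr_right fun hy => ⟨fun h => ?_, prOf_test hA hL⟩
  have h1 := (mem_LQ hL).2 (Or.inl hy)
  have h2 := (hA.typ' h1).1
  have h3 := Nat.minFac_prime h2.ne'
  simp only [all_iff, bor_iff, bnot_iff, dv_iff, Nat.beq_eq] at h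
  rcases (mem_LQ hL).1 (hA.pmem h1 h3 y.minFac_dvd) with e | e
  · exact ((h _ e).resolve_right (not_not.2 y.minFac_dvd)) ▸ h3
  · exact (le_antisymm (Nat.minFac_le (by omega)) (hQ y hy _ e)) ▸ h3

theorem aut_mem (hA : DataA g M) (hB : DataB g M) (hL : M.map Prod.fst = (L : Multiset ℕ) + Q) {ps : List ℕ}
    (hps : ∀ r, r ∈ ps ↔ r ∈ L ∧ r.Prime) (hn : ps.Nodup) {p : ℕ} (hp : p.Prime)
    (h1 : p ∈ M.map Prod.fst) (h2 : ∀ q ∈ Q, p ≤ q) : ∃ n e, p = n * e + 1 ∧ n ≠ 0 ∧ e ≠ 0 ∧ n ≤ cnt M p ∧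
      e ∈ allE L ps L := by
  obtain ⟨n, e, k1, k2, k3, k4⟩ := hB.aut p hp (cnt_pos.2 h1)
  have ne : n * e ≠ 0 := by have := hp.two_le; omega
  have e0 := right_ne_zero_of_mul ne
  have lt : ∀ y, y ∣ e → y ∉ Q := fun y hy hq => by
    have := h2 y hq
    have := Nat.le_of_dvd (Nat.pos_of_ne_zero ne) (hy.mul_left n)
    omega
  refine ⟨n, e, k1, left_ne_zero_of_mul ne, e0, k2, mem_allE (k4.imp_right fun ⟨a, ha, a1, a2⟩ => ?_)⟩
  have aA := Multiset.mem_map_of_mem Prod.fst ha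
  refine ⟨a.1, ((mem_LQ hL).1 aA).resolve_right (lt _ a1), mem_exps (fun r hr => ((hps r).1 hr).2) hn e e0
    (fun q hq hd => ?_) (fun q _ hd => hd.trans a1) fun r j hr hj => ?_⟩
  · have := hq.dvd_of_dvd_pow (hd.trans a2)
    exact ⟨(hps q).2 ⟨((mem_LQ hL).1 (hA.pmem aA hq this)).resolve_right (lt _ hd), hq⟩, this⟩
  · rcases j with _ | j
    · exact Nat.zero_le _
    · have := k3 r _ hr hj
      rwa [cnt_LQ hL, List.count_eq_zero_of_not_mem (lt r ((dvd_pow_self r j.succ_ne_zero).trans hj)), add_zero] at this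

theorem massOK_of (hA : DataA g M) {x f : ℕ} (hL : M.map Prod.fst = (L : Multiset ℕ) + (x :: Q : List ℕ))
    (hQ : ∀ q ∈ Q, x ≤ q) (hf : Q.length ≤ f) : massOK (16667 + (L.map w0).sum) f x = true := by
  have h1 := hA.mass
  have h2 : (Q.map w0).sum ≤ (Q.map w0).length • (1000000 / max x 5 + 1) :=
    List.sum_le_card_nsmul _ _ fun y hy => by
      obtain ⟨q, hq, rfl⟩ := List.mem_map.1 hy
      obtain ⟨q1, q2⟩ := hA.typ' ((mem_LQ hL).2 (Or.inr (List.mem_cons_of_mem _ hq)))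
      have q3 := hQ q hq
      have q4 : q ≠ 4 := fun e => by
        rw [e] at q2
        exact absurd (q2 2 dvd_rfl) (by simp)
      refine Nat.succ_le_succ (Nat.div_le_div_left ?_ (by omega))
      simp only [sel_eq, Nat.beq_eq]
      split_ifs <;> omega
  rw [hL, Multiset.map_add, Multiset.sum_add, Multiset.map_coe, Multiset.map_coe, Multiset.sum_coe, Multiset.sum_coe,
    List.map_cons, List.sum_cons] at h1
  rw [List.length_map, smul_eq_mul] at h2
  have h3 := Nat.mul_le_mul_right (1000000 / max x 5 + 1) hf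
  rw [massOK, Nat.ble_eq, mx_eq]
  show _ ≤ 16667 + (L.map w0).sum + w0 x + f * (1000000 / max x 5 + 1)
  omega

theorem mem_upTo {k n : ℕ} (h0 : k ≠ 0) (h : k ≤ n) : k ∈ upTo n := by
  induction n with
  | zero => omega
  | succ n ih =>
    refine List.mem_cons.2 (or_iff_not_imp_left.2 fun e => ih ?_)
    omega

theorem body1_spec (hA : DataA g M) (hB : DataB g M) (hL : M.map Prod.fst = (L : Multiset ℕ) + Q)
    (hQ : ∀ y ∈ L, ∀ q ∈ Q, y ≤ q) {f h : ℕ} (hf : f + L.length = 10) (hh : h ∈ L)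
    {k : List ℕ → List ℕ → ℕ → Bool → Bool} (hb : body1 sv f h L k = true) :
    (Q = [] → M.card ≤ 7 ∨ Res sv g M) ∧ ∃ E a, k (dedup (prOf L)) E (16667 + (L.map w0).sum) a = true ∧
      (h ∉ Q → a = true) ∧ ∀ p, p.Prime → p ∈ M.map Prod.fst → (∀ q ∈ Q, p ≤ q) →
        ∃ n e, p = n * e + 1 ∧ n ≠ 0 ∧ e ≠ 0 ∧ n ≤ cnt M p ∧ e ∈ E := by
  have hpr := fun r => mem_dedup.trans (mem_prOf hA hL hQ r)
  have hE := fun p => aut_mem hA hB hL hpr (nodup_dedup _) (p := p)
  have h1 := hb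
  rw [body1, frcL_eq, frc_eq, sm_eq] at h1
  generalize allE L (dedup (prOf L)) L = E at h1 hE
  change sel (imp (mem h (dedup (prOf L))) _) _ _ = true at h1
  rw [sel_eq] at h1
  split_ifs at h1 with e
  · rw [band_iff] at h1
    refine ⟨fun e1 => ?_, E, true, h1.2, fun _ => rfl, hE⟩
    subst e1
    have h2 := card_LQ hL
    have h3 := hA.mass
    rw [List.length_nil] at h2
    rw [Multiset.coe_nil, add_zero] at hL
    refine or_iff_not_imp_left.2 fun h4 => root2_spec hA hB hL.symm hpr ?_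
    rw [hL, Multiset.map_coe, Multiset.sum_coe] at h3
    obtain ⟨p, p1, p2, p3⟩ := hA.big
    have h5 := h1.1
    simp only [imp_iff, any_iff, Nat.ble_eq] at h5
    rw [show L.length = Nat.sub 10 f from (Nat.sub_eq_of_eq_add (by omega)).symm]
    exact h5 (by omega) h3 ⟨p, (hpr p).2 ⟨Multiset.mem_coe.1 (hL ▸ cnt_pos.1 (hA.prime p p1 p3)), p1⟩, p2⟩
  · have h2 : h ∈ Q := by
      by_contra h2
      refine e ?_
      simp only [imp_iff, any_iff, band_iff, dv_iff, mem_iff, Nat.ble_eq, ct_eq]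
      intro h3
      obtain ⟨n, e, k1, _, k3, k4, k5⟩ := hE h ((hpr h).1 h3).2 ((mem_LQ hL).2 (Or.inl hh)) (hQ h hh)
      rw [cnt_LQ hL, List.count_eq_zero_of_not_mem h2, add_zero] at k4
      have k6 : Nat.sub h 1 = n * e := Nat.sub_eq_of_eq_add k1
      rw [k6]
      exact ⟨e, k5, dvd_mul_left _ _, le_of_eq_of_le (Nat.mul_div_cancel n (Nat.pos_of_ne_zero k3)) k4⟩
    exact ⟨fun e1 => absurd (e1 ▸ h2) List.not_mem_nil, E, false, h1, fun e1 => absurd h2 e1, hE⟩

theorem candK_spec (hA : DataA g M) (hB : DataB g M) {x : ℕ}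
    (hL : M.map Prod.fst = (L : Multiset ℕ) + (x :: Q : List ℕ)) (hQ : ∀ y ∈ L, ∀ q ∈ x :: Q, y ≤ q)
    (hx : ∀ q ∈ Q, x ≤ q) {f h : ℕ} (hf : Q.length ≤ f) (hh : ∀ y ∈ L, y ≤ h) (hl : h < x) {E : List ℕ}
    (hE : x.Prime → ∃ n e, x = n * e + 1 ∧ n ≠ 0 ∧ e ≠ 0 ∧ n ≤ cnt M x ∧ e ∈ E) {F : ℕ → Bool}
    (hk : candK L (dedup (prOf L)) E h (16667 + (L.map w0).sum) f (allD F) = true) : F x = true := by
  have hpr := fun r => mem_dedup.trans (mem_prOf hA hL hQ r)
  have hm := massOK_of hA hL hx hf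
  have xA := (mem_LQ hL).2 (Or.inr List.mem_cons_self)
  have lt : ∀ y ∈ M.map Prod.fst, y < x → y ∈ L := fun y hy e => ((mem_LQ hL).1 hy).resolve_right fun e1 =>
    (List.mem_cons.1 e1).elim e.ne fun e2 => (hx y e2).not_gt e
  simp only [candK, frcL_eq] at hk
  refine allD_spec hk x ?_
  simp only [app_eq, List.mem_append, mem_flt, all_iff, imp_iff, band_iff, bor_iff, bnot_iff, dv_iff, mem_iff,
    Nat.blt_eq, Nat.beq_eq]
  by_cases xp : x.Prime
  · obtain ⟨n, e, k1, k2, _, k4, k5⟩ := hE xp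
    rw [cnt_LQ hL, List.count_eq_zero_of_not_mem fun e => (hh x e).not_gt hl, zero_add] at k4
    refine Or.inr ⟨k1 ▸ mem_mulS k5 (mem_upTo k2 (k4.trans (List.count_le_length.trans (Nat.succ_le_succ hf)))),
      hl, hm, fun q hq => or_iff_not_imp_right.2 fun e1 => ((Nat.dvd_prime xp).1 (not_not.1 e1)).resolve_left ?_⟩
    rintro rfl
    exact absurd hq (by decide)
  · obtain ⟨a, ha, rfl⟩ := Multiset.mem_map.1 xA
    obtain ⟨_, a1, a2⟩ := hA.typ a ha
    have key : ∀ r, r.Prime → r ∣ a.1 → ∃ y ∈ L, y * r = a.1 := fun r hr hd => by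
      obtain ⟨b, hb, b1, _⟩ := hB.parent a ha r hr hd fun e => xp (e ▸ hr)
      refine ⟨b.1, lt _ (Multiset.mem_map_of_mem _ hb) ?_, b1⟩
      rw [← b1]
      exact (Nat.lt_mul_iff_one_lt_right (by have := (hA.typ b hb).2.1; omega)).2 hr.one_lt
    have hr := Nat.minFac_prime a1.ne'
    obtain ⟨y, hy, y1⟩ := key _ hr a.1.minFac_dvd
    refine Or.inl ⟨y1 ▸ mem_mulL (mem_dedup.2 hy) ((hpr _).2 ⟨lt _ (hA.pmem xA hr a.1.minFac_dvd)
      ((Nat.not_prime_iff_minFac_lt a1).1 xp), hr⟩), hl, hm, fun q hq hd => ?_⟩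
    have qp := ((hpr q).1 hq).2
    obtain ⟨z, hz, z1⟩ := key q qp hd
    show a.1 / q ∈ L ∧ ¬ q ∣ a.1 / q
    rw [Nat.div_eq_of_eq_mul_left qp.pos z1.symm]
    exact ⟨hz, fun e => qp.not_isUnit (a2 _ ((Nat.mul_dvd_mul_right e _).trans z1.dvd))⟩

end One

theorem node1_succ (cut : List (List ℕ)) (f h : ℕ) (L : List ℕ) : node1 sv cut (f + 1) h L =
    bor (any (eqL L) cut) (body1 sv (f + 1) h L fun pr E W a =>
      band (imp (massOK W f h) (node1 sv cut f h (h :: L)))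
        (imp a (candK L pr E h W f (allD fun x => node1 sv cut f x (x :: L))))) := rfl

theorem node1_spec {cut : List (List ℕ)} (hc : ∀ L ∈ cut, Good1 sv L) (f : ℕ) : ∀ h L, f + L.length = 10 →
    h ∈ L → (∀ y ∈ L, y ≤ h) → node1 sv cut f h L = true → Good1 sv L := by
  induction f with
  | zero =>
    intro h L hf h1 _ hn g M hA hB Q hL q1 hQ
    rcases (bor_iff (a := any (eqL L) cut) (b := body1 sv 0 h L fun _ _ _ _ => true)).1 hn with e | e
    · obtain ⟨L', e1, e2⟩ := any_iff.1 e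
      exact hc L (eqL_spec e2 ▸ e1) g M hA hB Q hL q1 hQ
    · refine (body1_spec hA hB hL hQ hf h1 e).1 (List.length_eq_zero_iff.1 ?_)
      have := card_LQ hL
      have := hA.card
      omega
  | succ f ih =>
    intro h L hf h1 h2 hn g M hA hB Q hL q1 hQ
    rcases bor_iff.1 (node1_succ cut f h L ▸ hn) with e | e
    · obtain ⟨L', e1, e2⟩ := any_iff.1 e
      exact hc L (eqL_spec e2 ▸ e1) g M hA hB Q hL q1 hQ
    · obtain ⟨k1, E, a, k2, k3, k4⟩ := body1_spec hA hB hL hQ hf h1 e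
      rcases Q with _ | ⟨x, Q⟩
      · exact k1 rfl
      have hx : ∀ q ∈ Q, x ≤ q := fun q hq => List.rel_of_pairwise_cons q1 hq
      have hl : Q.length ≤ f := by
        have := card_LQ hL
        have := hA.card
        rw [List.length_cons] at *
        omega
      have k5 : h ≤ x := hQ h h1 x List.mem_cons_self
      simp only [band_iff, imp_iff] at k2
      refine ih x (x :: L) (by rw [List.length_cons]; omega) List.mem_cons_self
        (List.forall_mem_cons.2 ⟨le_rfl, fun y hy => (h2 y hy).trans k5⟩) ?_ g M hA hB Q ?_ q1.of_cons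
        (List.forall_mem_cons.2 ⟨hx, fun y hy q hq => hQ y hy q (List.mem_cons_of_mem _ hq)⟩)
      · rcases k5.eq_or_lt with rfl | k5
        · exact k2.1 (massOK_of hA hL hx hl)
        · refine candK_spec (F := fun x => node1 sv cut f x (x :: L)) hA hB hL hQ hx hl h2 k5 (fun xp =>
            k4 x xp ((mem_LQ hL).2 (Or.inr List.mem_cons_self)) (List.forall_mem_cons.2 ⟨le_rfl, hx⟩))
            (k2.2 (k3 fun e => ?_))
          exact (List.mem_cons.1 e).elim k5.ne fun e1 => (hx h e1).not_gt k5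
      · rw [hL, ← Multiset.cons_coe, ← Multiset.cons_coe, Multiset.add_cons, Multiset.cons_add]

/-- The check of one piece of the search tree. -/
noncomputable def chk1 (sv : List (ℕ × List (ℕ × ℕ))) (cut : List (List ℕ)) (f h : ℕ) (L : List ℕ) : Bool :=
  band (Nat.beq (Nat.add f (sm (fun _ => 1) L)) 9) (band (all (fun y => Nat.ble y h) L) (node1 sv cut f h (h :: L)))

theorem good1_of (cut : List (List ℕ)) (f h : ℕ) (L : List ℕ) (hn : chk1 sv cut f h L = true)
    (hc : cut.Forall (Good1 sv)) : Good1 sv (h :: L) := by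
  simp only [chk1, band_iff, all_iff, Nat.beq_eq, Nat.ble_eq, sm_eq, List.map_const', List.sum_replicate, smul_eq_mul,
    mul_one, Nat.add_eq] at hn
  exact node1_spec (List.forall_iff_forall_mem.1 hc) f h _ (by rw [List.length_cons]; omega) List.mem_cons_self
    (List.forall_mem_cons.2 ⟨le_rfl, hn.2.1⟩) hn.2.2

theorem res_of (h : Good1 sv [2]) (hA : DataA g M) (hB : DataB g M) : M.card ≤ 7 ∨ Res sv g M := by
  obtain ⟨Q, q1, q2⟩ := exists_sorted (fun a b : ℕ => a ≤ b) le_total (fun _ _ _ => le_trans) ((M.map Prod.fst).erase 2)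
  refine h g M hA hB Q ?_ q2 fun y hy q hq => ?_
  · rw [q1, Multiset.coe_singleton, Multiset.singleton_add,
      Multiset.cons_erase (cnt_pos.1 (hA.prime 2 Nat.prime_two hA.even))]
  · rw [List.mem_singleton.1 hy]
    exact (hA.typ' (Multiset.mem_of_mem_erase (q1 ▸ Multiset.mem_coe.2 hq))).1

end CL.KC
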