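/-
Simple groups with at most eleven conjugacy classes: the sieve by character degrees.
-/
import Cfsg.Agent.Known.KC.S1

set_option autoImplicit false

namespace CL.KC

noncomputable section

def pl : List ℕ := [2, 3, 5, 7, 11, 13, 17]

/-! Rows. -/

def ints (B : ℕ) : List ℤ :=
  Nat.rec (motive := fun _ => List ℤ) [0] (fun j ih => Int.ofNat (Nat.succ j) :: Int.negSucc j :: ih) B

def frcP (l : List (ℕ × ℕ)) : (List (ℕ × ℕ) → Bool) → Bool :=
  List.rec (motive := fun _ => (List (ℕ × ℕ) → Bool) → Bool) (fun k => k [])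
    (fun x _ ih k => frc x.1 fun y => frc x.2 fun z => ih fun m => k ((y, z) :: m)) l

def bnd (c : ℕ) : ℕ := Nat.pow 2 (Nat.succ (Nat.div (Nat.log2 c) 2))

def vals (g d : ℕ) (a : ℕ × ℕ) : List (ℕ × ℕ) :=
  (flt (fun x : ℤ => frc x.natAbs fun j => band (Nat.ble (j * j * (g / a.2)) g) (band (Nat.ble j d)
    (band (dv d (g / a.2 * j)) (band (imp (mem a.1 pl) (dv a.1 (x - d).natAbs))
      (all (fun q => imp (dv q a.1) (bor (dv q (g / d)) (Nat.beq j 0))) pl))))) (ints (bnd a.2))).map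
    fun x => ((x * x + x).toNat * (g / a.2), (x * x - x).toNat * (g / a.2))

def noRow (V : ℕ × ℕ → List (ℕ × ℕ)) (P : List (ℕ × ℕ)) : ((ℕ → ℕ → Bool) → Bool) → Bool :=
  List.rec (motive := fun _ => ((ℕ → ℕ → Bool) → Bool) → Bool)
    (fun k => k fun n1 n2 => bnot (band (Nat.beq n1 0) (Nat.beq n2 0)))
    (fun a _ ih k => frcP (V a) fun v => ih fun F => k fun n1 n2 =>
      all (fun w => imp (Nat.ble w.1 n1) (imp (Nat.ble w.2 n2)
        (frc (Nat.sub n1 w.1) fun m1 => frc (Nat.sub n2 w.2) fun m2 => F m1 m2))) v) P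

def rowBad (g : ℕ) (P : List (ℕ × ℕ)) (d : ℕ) : Bool :=
  band (all (fun a => Nat.ble g (bnd a.2 * bnd a.2 * (g / a.2))) P)
    (noRow (vals g d) P.reverse fun F => F (g - (d * d + d)) (g + d - d * d))

/-! Degrees. -/

def chs (ex : Bool) (leaf : List ℕ → ℕ → Bool) (r : ℕ) : List ℕ → List ℕ → ℕ → Bool :=
  Nat.rec (motive := fun _ => List ℕ → List ℕ → ℕ → Bool) (fun _ acc n => leaf acc n)
    (fun r ih T acc n => List.rec (motive := fun _ => Bool) true
      (fun z T' ih' => frc (Nat.mul z z) fun s => bor (band ex (Nat.blt (Nat.mul (Nat.succ r) s) n))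
        (band (imp (Nat.ble s n) (frc (Nat.sub n s) (ih (z :: T') (z :: acc)))) ih')) T) r

def sg (q d : ℕ) : ℤ := sel (dv q d) 0 (sel (Nat.beq (d % q) 1) (d : ℤ) (-(d : ℤ)))

def ss (l : List ℤ) : List ℤ := List.rec (motive := fun _ => List ℤ) [0] (fun a _ ih => ih ++ ih.map (a + ·)) l

def vtest (g p e t : ℕ) (X : List ℤ) (u : ℤ) : Bool :=
  all (fun q => bor (Nat.beq q p) (imp (dv q g) (frc (part q g) fun Q => band
    (all (fun x => imp (dv x.natAbs (Nat.pow q (Nat.log2 x.natAbs))) (any (fun y =>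
      any (fun j : ℕ => dv Q (((p : ℤ) - 1) * (x + y) - e * u * j).natAbs) (0 :: upTo t)) (ss (X.erase x)))) X)
    (imp (dv u.natAbs (Nat.pow q (Nat.log2 u.natAbs))) (any (fun y =>
      any (fun j : ℕ => dv Q (((p : ℤ) - 1) * y - e * u * j).natAbs) (upTo t)) (ss X)))))) pl

def full (q s : ℕ) (bad D : List ℕ) (m : ℕ) : Bool :=
  imp (Nat.beq m 0) (bor (any (fun d => Nat.beq (ct d D) 1) bad)
    (all (fun v => bnot (Nat.beq (1 + (D.map (sg q)).sum - s * sg q v).natAbs v)) D))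

def xleaf (g p e t r q s : ℕ) (bad Z X : List ℕ) (n : ℕ) : Bool :=
  frc (1 + (X.map (sg p)).sum).natAbs fun v => imp (Nat.ble 2 v) (imp (dv v g) (imp (Nat.ble (t * (v * v)) n)
    (imp (vtest g p e t (X.map (sg p)) (1 + (X.map (sg p)).sum))
      (frcL (List.replicate t v ++ X) fun D => frc (n - t * (v * v)) (chs true (full q s bad) r Z D)))))

def scOK (P : List (ℕ × ℕ)) (p : ℕ) : Bool :=
  band (mem p pl) (band (Nat.ble 3 p) (any (fun a => band (Nat.beq a.1 p) (Nat.beq a.2 p)) P))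

def kill (g : ℕ) (P : List (ℕ × ℕ)) (p q B : ℕ) (bad : List ℕ) : Bool :=
  band (scOK P p) (band (scOK P q) (band (Nat.ble g (B * B)) (band (all (rowBad g P) bad)
    (frc (ct p (P.map Prod.fst)) fun t => frc (ct q (P.map Prod.fst)) fun s => frc ((p - 1) / t) fun e =>
      imp (Nat.ble (e - 1 + t) P.length) (frc (P.length - (e - 1 + t)) fun r =>
        frcL (flt (fun d => band (dv d g) (Nat.ble 2 d)) (upTo B)) fun Dv => frcL (flt (dv p) Dv) fun Z =>
        frcL (flt (fun d => bor (dv p (d + 1)) (Nat.beq (d % p) 1)) Dv) fun T =>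
          frc (e - 1) fun e' => frc (g - 1) (chs false (xleaf g p e t r q s bad Z) e' T []))))))

def outB (g : ℕ) (P : List (ℕ × ℕ)) : Bool :=
  bor (band (Nat.beq P.length 8) (mem g [504, 1092])) (bor (band (Nat.beq P.length 9)
    (bor (Nat.beq g 7920) (band (Nat.beq g 20160) (Nat.beq (ct 6 (P.map Prod.fst)) 0))))
    (band (Nat.beq P.length 10) (mem g [2448, 29120])))

def sieve (l : List (ℕ × List (ℕ × ℕ))) : List (ℕ × ℕ × ℕ × List ℕ) → Bool :=
  List.rec (motive := fun _ => List (ℕ × ℕ × ℕ × List ℕ) → Bool) (fun _ => true)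
    (fun s _ ih c => List.rec (motive := fun _ => Bool) false
      (fun a c' _ => band (bor (outB s.1 s.2) (kill s.1 s.2 a.1 a.2.1 a.2.2.1 a.2.2.2)) (ih c')) c) l

end

end CL.KC
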