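/-
Simple groups with at most eleven conjugacy classes: soundness of the sieve by character degrees.
-/
import Cfsg.Agent.Known.KC.Sieve

set_option autoImplicit false

namespace CL.KC

theorem pl_prime {q : ℕ} (h : q ∈ pl) : q.Prime := (by decide : ∀ q ∈ pl, q.Prime) q h

theorem mem_ints {B : ℕ} {x : ℤ} (h : x.natAbs ≤ B) : x ∈ ints B := by
  induction B with
  | zero => exact List.mem_singleton.2 (by omega)
  | succ B ih =>
    show x ∈ Int.ofNat (B + 1) :: Int.negSucc B :: ints B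
    simp only [List.mem_cons, Int.ofNat_eq_natCast, Int.negSucc_eq]
    by_cases e : x.natAbs ≤ B
    · exact Or.inr (Or.inr (ih e))
    · omega

theorem frcP_eq (l : List (ℕ × ℕ)) : ∀ k : List (ℕ × ℕ) → Bool, frcP l k = k l := by
  induction l with
  | nil => exact fun _ => rfl
  | cons x t ih =>
    intro k
    show (frc x.1 fun y => frc x.2 fun z => frcP t fun m => k ((y, z) :: m)) = _
    rw [frc_eq, frc_eq, ih]

theorem noRow_spec {β : Type} (f : β → ℕ × ℕ) (w1 w2 : β → ℕ) (V : ℕ × ℕ → List (ℕ × ℕ)) (P : List (ℕ × ℕ)) :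
    ∀ k, noRow V P k = true → ∃ F, k F = true ∧ ∀ N : Multiset β, N.map f = P →
      (∀ z ∈ N, (w1 z, w2 z) ∈ V (f z)) → ¬ F (N.map w1).sum (N.map w2).sum = true := by
  classical
  induction P with
  | nil =>
    refine fun k h => ⟨_, h, fun N h1 _ => ?_⟩
    rw [Multiset.coe_nil, Multiset.map_eq_zero] at h1
    simp [h1]
  | cons a P ih =>
    intro k h
    obtain ⟨F, h1, h2⟩ := ih _ ((frcP_eq (V a) _).symm.trans h)
    refine ⟨_, h1, fun N h3 h4 h5 => ?_⟩
    obtain ⟨z, z1, rfl, z2⟩ := (Multiset.map_eq_cons f N P a).2 h3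
    simp only [all_iff, imp_iff, frc_eq, Nat.ble_eq] at h5
    have h6 := h5 _ (h4 z z1)
    rw [← Multiset.cons_erase z1, Multiset.map_cons, Multiset.map_cons, Multiset.sum_cons, Multiset.sum_cons] at h6
    refine h2 _ z2 (fun y hy => h4 y (Multiset.mem_of_mem_erase hy)) ?_
    simpa using h6 (Nat.le_add_right _ _) (Nat.le_add_right _ _)

theorem rowBad_spec {g d : ℕ} {P : List (ℕ × ℕ)} (d0 : 0 < d) (h : rowBad g P d = true) : ¬ Row g P d := by
  rintro ⟨N, h1, h2, h3, h4⟩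
  rw [rowBad, band_iff, all_iff] at h
  obtain ⟨F, k1, k2⟩ := noRow_spec (fun z : (ℕ × ℕ) × ℤ => z.1) (fun z => (z.2 * z.2 + z.2).toNat * (g / z.1.2))
    (fun z => (z.2 * z.2 - z.2).toNat * (g / z.1.2)) _ _ _ h.2
  have e1 : ((N.map fun z => (z.2 * z.2 + z.2).toNat * (g / z.1.2)).sum : ℤ) =
      (N.map fun z => z.2 ^ 2 * ((g / z.1.2 : ℕ) : ℤ)).sum + (N.map fun z => z.2 * ((g / z.1.2 : ℕ) : ℤ)).sum := by
    rw [Nat.cast_multiset_sum, Multiset.map_map, ← Multiset.sum_map_add]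
    refine congrArg _ (Multiset.map_congr rfl fun z _ => ?_)
    rw [Function.comp, Nat.cast_mul, Int.toNat_of_nonneg (by nlinarith [sq_nonneg (2 * z.2 + 1)])]
    ring
  have e2 : ((N.map fun z => (z.2 * z.2 - z.2).toNat * (g / z.1.2)).sum : ℤ) =
      (N.map fun z => z.2 ^ 2 * ((g / z.1.2 : ℕ) : ℤ)).sum - (N.map fun z => z.2 * ((g / z.1.2 : ℕ) : ℤ)).sum := by
    rw [Nat.cast_multiset_sum, Multiset.map_map, ← Multiset.sum_map_sub]
    refine congrArg _ (Multiset.map_congr rfl fun z _ => ?_)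
    rw [Function.comp, Nat.cast_mul, Int.toNat_of_nonneg (by nlinarith [sq_nonneg (2 * z.2 - 1)])]
    ring
  have e3 : ((d * d : ℕ) : ℤ) = (d : ℤ) ^ 2 := by push_cast; ring
  refine k2 N (h1.trans (Multiset.coe_reverse P).symm) (fun z hz => ?_) ?_
  · obtain ⟨r1, r2, r3, r4⟩ := h2 z hz
    have k3 : z.2 ^ 2 * ((g / z.1.2 : ℕ) : ℤ) ≤ (N.map fun z => z.2 ^ 2 * ((g / z.1.2 : ℕ) : ℤ)).sum :=
      Multiset.single_le_sum (fun x hx => by
        obtain ⟨y, _, rfl⟩ := Multiset.mem_map.1 hx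
        positivity) _ (Multiset.mem_map_of_mem _ hz)
    have k4 : z.2.natAbs * z.2.natAbs * (g / z.1.2) < g := by
      have : (0 : ℤ) < (d : ℤ) ^ 2 := by positivity
      zify
      rw [abs_mul_abs_self, ← sq]
      push_cast at k3 h4
      linarith
    have k5 := h.1 z.1 (Multiset.mem_coe.1 (h1 ▸ Multiset.mem_map_of_mem _ hz))
    rw [Nat.ble_eq] at k5
    refine List.mem_map.2 ⟨z.2, mem_flt.2 ⟨mem_ints ?_, ?_⟩, rfl⟩
    · exact (Nat.mul_self_lt_mul_self_iff.1 (Nat.lt_of_mul_lt_mul_right (k4.trans_le k5))).le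
    · simp only [frc_eq, band_iff, imp_iff, all_iff, bor_iff, dv_iff, mem_iff, Nat.ble_eq, Nat.beq_eq]
      refine ⟨k4.le, r1, ?_, fun e => Int.natCast_dvd.1 (r2 (pl_prime e)), fun q hq e => or_iff_not_imp_left.2
        fun e1 => Int.natAbs_eq_zero.2 (r3 q (pl_prime hq) e e1)⟩
      have := Int.natCast_dvd.1 r4
      rwa [Int.natAbs_mul, Int.natAbs_natCast] at this
  · rw [show (N.map fun z => (z.2 * z.2 + z.2).toNat * (g / z.1.2)).sum = g - (d * d + d) by omega,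
      show (N.map fun z => (z.2 * z.2 - z.2).toNat * (g / z.1.2)).sum = g + d - d * d by omega]
    exact k1

theorem chs_succ (ex : Bool) (leaf : List ℕ → ℕ → Bool) (r z : ℕ) (T acc : List ℕ) (n : ℕ) :
    chs ex leaf (r + 1) (z :: T) acc n = frc (z * z) fun s => bor (band ex (Nat.blt ((r + 1) * s) n))
      (band (imp (Nat.ble s n) (frc (n - s) (chs ex leaf r (z :: T) (z :: acc)))) (chs ex leaf (r + 1) T acc n)) := rfl

theorem chs_spec {ex : Bool} {leaf : List ℕ → ℕ → Bool} {m : ℕ} (hm : ex = true → m = 0) (r : ℕ) :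
    ∀ (T : List ℕ), T.Pairwise (· ≥ ·) → ∀ (acc : List ℕ) (X : Multiset ℕ), X.card = r → (∀ x ∈ X, x ∈ T) →
      chs ex leaf r T acc ((X.map (· ^ 2)).sum + m) = true →
      ∃ l : List ℕ, (l : Multiset ℕ) = acc + X ∧ leaf l m = true := by
  induction r with
  | zero =>
    intro T _ acc X h1 _ h
    rw [Multiset.card_eq_zero.1 h1] at h ⊢
    exact ⟨acc, (add_zero _).symm, by simpa using (show leaf acc _ = true from h)⟩
  | succ r ih =>
    intro T
    induction T with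
    | nil =>
      intro _ acc X h1 h2 _
      obtain ⟨x, hx⟩ := Multiset.card_pos_iff_exists_mem.1 (r.succ_pos.trans_eq h1.symm)
      exact absurd (h2 x hx) List.not_mem_nil
    | cons z T ih' =>
      intro hT acc X h1 h2 h
      simp only [chs_succ, frc_eq, bor_iff, band_iff, imp_iff, Nat.blt_eq, Nat.ble_eq] at h
      have h3 := h.resolve_left fun e => by
        have := Multiset.sum_le_card_nsmul (X.map (· ^ 2)) (z * z) fun y hy => by
          obtain ⟨x, hx, rfl⟩ := Multiset.mem_map.1 hy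
          rw [← sq]
          exact Nat.pow_le_pow_left ((List.mem_cons.1 (h2 x hx)).elim le_of_eq (List.rel_of_pairwise_cons hT)) 2
        rw [Multiset.card_map, h1, smul_eq_mul] at this
        have := hm e.1
        omega
      by_cases e : z ∈ X
      · obtain ⟨Y, rfl⟩ := Multiset.exists_cons_of_mem e
        rw [Multiset.map_cons, Multiset.sum_cons, sq, add_assoc, Nat.add_sub_cancel_left] at h3
        obtain ⟨l, l1, l2⟩ := ih _ hT (z :: acc) Y (by simpa using h1)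
          (fun x hx => h2 x (Multiset.mem_cons_of_mem hx)) (h3.1 (Nat.le_add_right _ _))
        exact ⟨l, by rw [l1, ← Multiset.cons_coe, Multiset.add_cons, Multiset.cons_add], l2⟩
      · exact ih' hT.of_cons acc X h1
          (fun x hx => (List.mem_cons.1 (h2 x hx)).resolve_left fun e1 => e (e1 ▸ hx)) h3.2

theorem pairwise_upTo (n : ℕ) : (upTo n).Pairwise (· ≥ ·) ∧ ∀ x ∈ upTo n, x ≤ n := by
  induction n with
  | zero => exact ⟨List.Pairwise.nil, by simp [upTo]⟩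
  | succ n ih =>
    exact ⟨List.Pairwise.cons (fun x hx => (ih.2 x hx).trans n.le_succ) ih.1,
      List.forall_mem_cons.2 ⟨le_rfl, fun x hx => (ih.2 x hx).trans n.le_succ⟩⟩

theorem mod_cases {p : ℕ} (hp : 3 ≤ p) {x : ℤ} (h : (p : ℤ) ∣ x - 1) :
    (0 ≤ x ∧ x.natAbs % p = 1) ∨ (x < 0 ∧ p ∣ x.natAbs + 1 ∧ x.natAbs % p = p - 1) := by
  rcases le_or_gt 0 x with e | e
  · refine Or.inl ⟨e, ?_⟩
    obtain ⟨n, rfl⟩ := Int.eq_ofNat_of_zero_le e
    have : 1 ≡ n [MOD p] := Nat.modEq_iff_dvd.2 h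
    rw [Int.natAbs_natCast, ← this, Nat.mod_eq_of_lt (by omega)]
  · have h1 : p ∣ x.natAbs + 1 := by
      rwa [← Int.natCast_dvd_natCast, ← dvd_neg, show -((x.natAbs + 1 : ℕ) : ℤ) = x - 1 by omega]
    refine Or.inr ⟨e, h1, ?_⟩
    obtain ⟨c, hc⟩ := h1
    rcases c with _ | c
    · omega
    · rw [show x.natAbs = p - 1 + p * c by rw [mul_add] at hc; omega, Nat.add_mul_mod_self_left,
        Nat.mod_eq_of_lt (by omega)]

theorem sg_abs {p : ℕ} (hp : 3 ≤ p) {x : ℤ} (h : (p : ℤ) ∣ x - 1) : sg p x.natAbs = x := by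
  simp only [sg, sel_eq, dv_iff, Nat.beq_eq, Nat.dvd_iff_mod_eq_zero]
  rcases mod_cases hp h with e | e <;> split_ifs <;> omega

theorem map_sg {p : ℕ} (hp : 3 ≤ p) {X : Multiset ℤ} (h : ∀ x ∈ X, (p : ℤ) ∣ x - 1) :
    (X.map Int.natAbs).map (sg p) = X := by
  rw [Multiset.map_map]
  exact (Multiset.map_congr rfl fun x hx => sg_abs hp (h x hx)).trans (Multiset.map_id' X)

theorem mem_ss {l : List ℤ} : ∀ {Y : Multiset ℤ}, Y ≤ l → Y.sum ∈ ss l := by
  induction l with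
  | nil =>
    intro Y h
    rw [Multiset.le_zero.1 h]
    exact List.mem_singleton.2 rfl
  | cons a l ih =>
    intro Y h
    refine List.mem_append.2 ?_
    rw [← Multiset.cons_coe] at h
    by_cases e : a ∈ Y
    · obtain ⟨Z, rfl⟩ := Multiset.exists_cons_of_mem e
      rw [Multiset.sum_cons]
      exact Or.inr (List.mem_map_of_mem (ih ((Multiset.cons_le_cons_iff a).1 h)))
    · exact Or.inl (ih ((Multiset.le_cons_of_notMem e).1 h))

theorem vtest_of {g p e t : ℕ} (g0 : g ≠ 0) {X : List ℤ} {u : ℤ}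
    (h : ∀ q a i : ℕ, q.Prime → q ≠ p → q ^ (a + 1) ∣ g →
      (∀ x ∈ (X : Multiset ℤ), x.natAbs = q ^ i → ∃ Y ≤ (X : Multiset ℤ), x ∈ Y ∧ ∃ j : ℕ, j ≤ t ∧
        (q : ℤ) ^ (a + 1) ∣ (p - 1) * Y.sum - e * u * j) ∧
      (u.natAbs = q ^ i → ∃ Y ≤ (X : Multiset ℤ), ∃ j : ℕ, 1 ≤ j ∧ j ≤ t ∧
        (q : ℤ) ^ (a + 1) ∣ (p - 1) * Y.sum - e * u * j)) : vtest g p e t X u = true := by
  simp only [vtest, all_iff, any_iff, bor_iff, band_iff, imp_iff, frc_eq, dv_iff, Nat.beq_eq]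
  refine fun q hq => or_iff_not_imp_left.2 fun e1 e2 => ?_
  have qp := pl_prime hq
  obtain ⟨a, ha⟩ := Nat.exists_eq_add_one.2 (qp.factorization_pos_of_dvd g0 e2)
  have e3 := Nat.ordProj_dvd g q
  rw [part_eq qp g0]
  rw [ha] at e3 ⊢
  refine ⟨fun x hx e4 => ?_, fun e4 => ?_⟩
  · obtain ⟨i, _, hi⟩ := (Nat.dvd_prime_pow qp).1 e4
    obtain ⟨Y, y1, y2, j, j1, j2⟩ := (h q a i qp e1 e3).1 x hx hi
    refine ⟨(Y.erase x).sum, mem_ss ((Multiset.erase_le_erase x y1).trans_eq (Multiset.coe_erase _ _)), j,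
      List.mem_cons.2 (or_iff_not_imp_left.2 fun e5 => mem_upTo e5 j1), Int.natCast_dvd.1 ?_⟩
    rwa [← Multiset.sum_cons, Multiset.cons_erase y2, Nat.cast_pow]
  · obtain ⟨i, _, hi⟩ := (Nat.dvd_prime_pow qp).1 e4
    obtain ⟨Y, y1, j, j0, j1, j2⟩ := (h q a i qp e1 e3).2 hi
    exact ⟨Y.sum, mem_ss y1, j, mem_upTo (by omega) j1, Int.natCast_dvd.1 (by rwa [Nat.cast_pow])⟩

theorem full_spec {g q s : ℕ} {bad D : List ℕ} (hq : 3 ≤ q) (hs : s ≠ 0) (h1 : Blk g q s D)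
    (h2 : ∀ d ∈ bad, D.count d ≠ 1) : ¬ full q s bad D 0 = true := by
  obtain ⟨X, u, e, W, -, -, k1, k2, k3, k4, -⟩ := h1
  simp only [full, imp_iff, bor_iff, any_iff, all_iff, bnot_iff, Nat.beq_eq, ct_eq, true_imp_iff, not_or]
  refine ⟨fun ⟨d, d1, d2⟩ => h2 d d1 d2, fun h => h u.natAbs ?_ ?_⟩
  · rw [← Multiset.mem_coe, k1]
    simp [Multiset.mem_replicate, hs]
  · rw [← Multiset.sum_coe, ← Multiset.map_coe, k1, Multiset.map_add, Multiset.map_add, map_sg hq k2,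
      Multiset.map_replicate, Multiset.sum_add, Multiset.sum_add, Multiset.sum_replicate, nsmul_eq_mul,
      Multiset.sum_eq_zero (s := W.map (sg q)) fun y hy => by
        obtain ⟨w, hw, rfl⟩ := Multiset.mem_map.1 hy
        rw [sg, sel_eq, if_pos (dv_iff.2 (k4 w hw))], k3]
    congr 1
    ring

theorem cnt_coe (P : List (ℕ × ℕ)) (p : ℕ) : ct p (P.map Prod.fst) = cnt P p := by
  rw [ct_eq, cnt, Multiset.map_coe, Multiset.coe_count]

theorem scOK_spec {P : List (ℕ × ℕ)} {p : ℕ} (h : scOK P p = true) :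
    p.Prime ∧ 3 ≤ p ∧ (p, p) ∈ (P : Multiset (ℕ × ℕ)) ∧ cnt P p ≠ 0 := by
  simp only [scOK, band_iff, any_iff, mem_iff, Nat.ble_eq, Nat.beq_eq] at h
  obtain ⟨h1, h2, a, h3, h4, h5⟩ := h
  have h6 : (p, p) ∈ (P : Multiset (ℕ × ℕ)) := Multiset.mem_coe.2 ((Prod.ext h4 h5 : a = (p, p)) ▸ h3)
  exact ⟨pl_prime h1, h2, h6, (cnt_pos.2 (Multiset.mem_map_of_mem Prod.fst h6)).ne'⟩

theorem kill_spec {g p q B : ℕ} {P : List (ℕ × ℕ)} {bad : List ℕ} (h : kill g P p q B bad = true) : ¬ Chr g P := by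
  rintro ⟨D, d1, d2, d3, d4, d5⟩
  simp only [kill, band_iff, all_iff, imp_iff, frc_eq, frcL_eq, Nat.ble_eq, cnt_coe] at h
  obtain ⟨h1, h2, h3, h4, h5⟩ := h
  obtain ⟨p1, p2, p3, p4⟩ := scOK_spec h1
  obtain ⟨q1, q2, q3, q4⟩ := scOK_spec h2
  obtain ⟨X, u, e, W, k1, k2, k3, k4, k5, k6, k7⟩ := d5 p p1 p3
  generalize cnt P p = t at *
  have e1 : (p - 1) / t = e := Nat.div_eq_of_eq_mul_left (Nat.pos_of_ne_zero p4) (by omega)
  have e2 : e - 1 = (X.map Int.natAbs).card := by rw [Multiset.card_map]; omega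
  have e3 : P.length = (X.map Int.natAbs).card + t + W.card := by
    rw [← Multiset.coe_card, ← d1, k3, Multiset.card_add, Multiset.card_add, Multiset.card_replicate]
  have e4 : g - 1 = ((X.map Int.natAbs).map (· ^ 2)).sum +
      (t * (u.natAbs * u.natAbs) + ((W.map (· ^ 2)).sum + 0)) := by
    rw [← d2, k3, Multiset.map_add, Multiset.map_add, Multiset.sum_add, Multiset.sum_add, Multiset.map_replicate,
      Multiset.sum_replicate, smul_eq_mul, sq]
    omega
  have hD : ∀ d ∈ D, d ∈ flt (fun d => band (dv d g) (Nat.ble 2 d)) (upTo B) := fun d hd => by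
    have := Multiset.single_le_sum (fun _ _ => Nat.zero_le _) _ (Multiset.mem_map_of_mem (· ^ 2) hd)
    have k := d3 d hd
    simp only [mem_flt, band_iff, dv_iff, Nat.ble_eq]
    exact ⟨mem_upTo (by omega) (Nat.mul_self_le_mul_self_iff.1 (by simp only [sq] at this d2; omega)), k.2, k.1⟩
  have hS : (flt (fun d => band (dv d g) (Nat.ble 2 d)) (upTo B)).Pairwise (· ≥ ·) :=
    flt_eq _ (upTo B) ▸ (pairwise_upTo B).1.filter _
  generalize flt (fun d => band (dv d g) (Nat.ble 2 d)) (upTo B) = Dv at *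
  rw [e1, e2, e4] at h5
  obtain ⟨l, l1, l2⟩ := chs_spec (fun e => absurd e Bool.false_ne_true) _ _ (flt_eq _ Dv ▸ hS.filter _) [] _ rfl
    (fun x hx => by
      obtain ⟨y, hy, rfl⟩ := Multiset.mem_map.1 hx
      refine mem_flt.2 ⟨hD _ (k3 ▸ Multiset.mem_add.2 (Or.inl (Multiset.mem_add.2 (Or.inl hx)))), ?_⟩
      simp only [bor_iff, dv_iff, Nat.beq_eq]
      exact (mod_cases p2 (k4 y hy)).symm.imp (fun e => e.2.1) fun e => e.2) (h5 (by omega))
  rw [Multiset.coe_nil, zero_add] at l1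
  have l3 : ((l.map (sg p) : List ℤ) : Multiset ℤ) = X := by rw [← Multiset.map_coe, l1, map_sg p2 k4]
  have l4 : 1 + (l.map (sg p)).sum = u := by rw [← Multiset.sum_coe, l3, k5]
  have u1 := d3 u.natAbs (by rw [k3]; simp [Multiset.mem_replicate, p4])
  simp only [xleaf, frc_eq, frcL_eq, imp_iff, dv_iff, Nat.ble_eq, l4, Nat.add_sub_cancel_left] at l2
  obtain ⟨D', m1, m2⟩ := chs_spec (fun _ => rfl) _ _ (flt_eq _ Dv ▸ hS.filter _) _ W (by omega)
    (fun w hw => mem_flt.2 ⟨hD _ (k3 ▸ Multiset.mem_add.2 (Or.inr hw)), dv_iff.2 (k6 w hw)⟩)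
    (l2 u1.1 u1.2 (Nat.le_add_right _ _) (vtest_of (by omega) (l3 ▸ k7)))
  have m3 : (D' : Multiset ℕ) = D := by
    rw [m1, k3, ← Multiset.coe_add, l1, Multiset.coe_replicate, add_comm (Multiset.replicate _ _)]
  subst m3
  refine full_spec q2 q4 (d5 q q1 q3) (fun d hd e => ?_) m2
  exact rowBad_spec (lt_of_lt_of_le two_pos (d3 d (Multiset.mem_coe.2 (List.count_pos_iff.1 (by omega)))).1)
    (h4 d hd) (d4 d ((Multiset.coe_count d D').trans e))

theorem outB_spec {g : ℕ} {P : List (ℕ × ℕ)} (h : outB g P = true) : Out g P := by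
  simp only [outB, bor_iff, band_iff, mem_iff, Nat.beq_eq, cnt_coe, List.mem_cons, List.not_mem_nil, or_false] at h
  exact Or.inr (Or.inr h)

/-- The sieve succeeds on `l`. -/
def Sv (l : List (ℕ × List (ℕ × ℕ))) : Prop := ∀ s ∈ l, Chr s.1 s.2 → Out s.1 s.2

theorem sieve_spec {l : List (ℕ × List (ℕ × ℕ))} : ∀ {c}, sieve l c = true → Sv l := by
  induction l with
  | nil => exact fun _ _ h => absurd h List.not_mem_nil
  | cons s l ih =>
    intro c h
    cases c with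
    | nil => exact absurd h Bool.false_ne_true
    | cons a c =>
      obtain ⟨h1, h2⟩ := (band_iff (a := bor (outB s.1 s.2) (kill s.1 s.2 a.1 a.2.1 a.2.2.1 a.2.2.2))
        (b := sieve l c)).1 h
      exact List.forall_mem_cons.2 ⟨fun e => (bor_iff.1 h1).elim outB_spec fun e1 => absurd e (kill_spec e1), ih h2⟩

theorem sv_step {l : List (ℕ × List (ℕ × ℕ))} {a b : ℕ} {c} (h1 : sieve ((l.drop a).take b) c = true)
    (h2 : Sv (l.drop (a + b))) : Sv (l.drop a) := by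
  rw [← List.take_append_drop b (l.drop a), List.drop_drop]
  exact List.forall_mem_append.2 ⟨sieve_spec h1, h2⟩

theorem search_of {sv : List (ℕ × List (ℕ × ℕ))} (h1 : Good1 sv [2]) (h2 : Sv sv) : Search := fun _ _ hA hB hC =>
  (res_of h1 hA hB).elim (fun e => Or.inr (Or.inl e)) fun e => e.elim Or.inl fun ⟨s, s1, s2, s3⟩ => by
    subst s2 s3
    exact h2 s s1 hC

end CL.KC
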